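import Cfsg.Agent.H38.Closure
import Cfsg.Agent.H38.Order
import Cfsg.Agent.H38.Simple

/-! The centre of the Weyl group; generation by a Coxeter element and reflections. -/

set_option autoImplicit false

namespace Cfsg.Agent.H38

open Cfsg.Lie Cfsg.Lie.ChevalleyDatum Cfsg.Agent.H37

theorem RS.center_cases {ι R : Type} [Fintype ι] [DecidableEq ι] {P : RS ι R} (hP : P.Conn)
    {z : Equiv.Perm R} (hz : z ∈ P.W) (h : ∀ i, P.σ i * z = z * P.σ i) :
    (∀ i, z (P.sp i) = P.sp i) ∨ ∀ i, z (P.sp i) = P.neg (P.sp i) := by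
  have h1 : ∀ i, z (P.sp i) = P.sp i ∨ z (P.sp i) = P.neg (P.sp i) := fun i => by
    refine P.reduced _ i fun j hj => ?_
    have e := congrArg (fun w : Equiv.Perm R => P.cf (w (P.sp i)) j) (h i)
    simp only [Equiv.Perm.mul_apply, P.σ_sp, P.W_neg hz, P.cf_neg, P.cf_σ_ne hj, Pi.neg_apply] at e
    omega
  by_contra hcon
  push Not at hcon
  obtain ⟨⟨a, ha⟩, b, hb⟩ := hcon
  obtain ⟨i, hi, j, hj, hC⟩ := hP {i | z (P.sp i) = P.sp i} ⟨b, (h1 b).resolve_right hb⟩ ⟨a, ha⟩
  have hj' := (h1 j).resolve_left hj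
  have hij : i ≠ j := by rintro rfl; exact hj hi
  have e1 : P.cf (P.σ i (P.sp j)) = (1 : ℤ) • P.cf (P.sp j) + (-P.C i j) • P.cf (P.sp i) := by
    rw [P.cf_σ, P.A_sp, P.cf_sp, P.cf_sp]
    ext k; simp [Pi.single_apply]; split_ifs <;> simp [sub_eq_add_neg]
  have e2 := congrFun (P.W_cf_add hz e1) i
  rw [← Equiv.Perm.mul_apply, ← h i, Equiv.Perm.mul_apply, hj', show z (P.sp i) = P.sp i from hi,
    P.cf_σ_self, P.A_neg, P.A_sp] at e2
  simp [P.cf_neg, P.cf_sp, hij] at e2
  exact hC (by omega)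

variable {D : ChevalleyDatum} [Chev D] (hD : IsChev D)

/-- The Coxeter group acting on the roots. -/
noncomputable def coxρ : (H39.coxM D).Group →* Equiv.Perm (Fin D.nroots) := (H39.RD hD).ρ₀

omit [Chev D] in
theorem coxρ_inj : Function.Injective (coxρ hD) := (H39.RD hD).ρ₀_injective

theorem range_coxρ : (coxρ hD).range = (rs D).W := by
  rw [rs_W_eq_RD hD]; exact (H39.RD hD).range_ρ₀

theorem coxρ_simple (i : Fin D.rank) : coxρ hD ((H39.coxM D).simple i) = (rs D).σ i := by
  rw [rs_σ_eq_RD hD]; exact (H39.RD hD).ρ₀_simple i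

theorem coxρ_mem (g : (H39.coxM D).Group) : coxρ hD g ∈ (rs D).W := range_coxρ hD ▸ ⟨g, rfl⟩

theorem coxρ_prod (l : List (Fin D.rank)) :
    coxρ hD (l.map (H39.coxM D).simple).prod = (rs D).wd l := by
  rw [map_list_prod, List.map_map, RS.wd]
  congr 2
  funext i; exact coxρ_simple hD i

/-- The Coxeter group is isomorphic to the Weyl group. -/
noncomputable def coxEquiv : (H39.coxM D).Group ≃* (rs D).W :=
  (MonoidHom.ofInjective (coxρ_inj hD)).trans (MulEquiv.subgroupCongr (range_coxρ hD))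

theorem wdN_iter {l : List ℕ} (hl : ∀ i ∈ l, i < D.rank) (m : ℕ) (r : Fin D.nroots) :
    (((rs D).wd (finW D l) ^ m) r : ℕ) = (wdN D l)^[m] r := by
  induction m with
  | zero => rfl
  | succ m ih => rw [pow_succ', Equiv.Perm.mul_apply, wd_finW hl, ih, Function.iterate_succ_apply']

theorem center_cases {z : (H39.coxM D).Group} (hz : z ∈ Subgroup.center (H39.coxM D).Group) :
    z = 1 ∨ ∀ i, coxρ hD z ((rs D).sp i) = (rs D).neg ((rs D).sp i) := by
  refine (RS.center_cases (rs_conn hD) (coxρ_mem hD z) fun i => ?_).imp_left fun h => ?_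
  · rw [← coxρ_simple hD, ← map_mul, ← map_mul, Subgroup.mem_center_iff.1 hz]
  · exact coxρ_inj hD ((rs D).W_eq_of_sp (coxρ_mem hD z) (coxρ_mem hD 1) (by simpa using h))

include hD in
theorem center_two {M : CoxeterMatrix (Fin D.rank)} (hM : H39.coxM D = M) (m : ℕ)
    (h : ∀ i < D.rank, (wdN D (List.range D.rank))^[m] (D.simple i) = D.neg (D.simple i)) :
    Nat.card (Subgroup.center M.Group) = 2 ∧
      Subgroup.center M.Group ≤ Subgroup.zpowers ((List.finRange D.rank).map M.simple).prod := by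
  subst hM
  set c := ((List.finRange D.rank).map (H39.coxM D).simple).prod
  have hc : ∀ i, coxρ hD (c ^ m) ((rs D).sp i) = (rs D).neg ((rs D).sp i) := fun i => Fin.ext (by
    rw [map_pow, coxρ_prod, ← finW_range, wdN_iter (by simp)]
    exact h i i.2)
  have hneg : ∀ r, coxρ hD (c ^ m) r = (rs D).neg r := fun r => (rs D).cf_inj (by
    rw [(rs D).W_cf_sum (coxρ_mem hD _), RS.cf_neg]
    simp only [hc]
    ext j
    simp [RS.cf_neg, RS.cf_sp, Pi.single_apply])
  have hcen : c ^ m ∈ Subgroup.center (H39.coxM D).Group := Subgroup.mem_center_iff.2 fun g =>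
    coxρ_inj hD (Equiv.ext fun r => by
      rw [map_mul, map_mul, Equiv.Perm.mul_apply, Equiv.Perm.mul_apply, hneg, hneg,
        (rs D).W_neg (coxρ_mem hD g)])
  have hall : ∀ z ∈ Subgroup.center (H39.coxM D).Group, z = 1 ∨ z = c ^ m := fun z hz =>
    (center_cases hD hz).imp_right fun h => coxρ_inj hD
      ((rs D).W_eq_of_sp (coxρ_mem hD z) (coxρ_mem hD _) fun i => by rw [h, hc])
  have h0 : 0 < D.rank := lt_of_lt_of_le two_pos (Chev.two_le_rank (D := D))
  have hne : 1 ≠ c ^ m := fun e => (rs D).ne_neg ((rs D).sp ⟨0, h0⟩) (by rw [← hc, ← e]; simp)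
  refine ⟨?_, fun z hz => ?_⟩
  · rw [← SetLike.coe_sort_coe, Nat.card_coe_set_eq, Set.ncard_eq_two]
    refine ⟨1, c ^ m, hne, Set.ext fun z => ⟨hall z, ?_⟩⟩
    rintro (rfl | rfl)
    exacts [one_mem _, hcen]
  · rcases hall z hz with rfl | rfl
    exacts [one_mem _, Subgroup.npow_mem_zpowers c m]

include hD in
theorem center_one {M : CoxeterMatrix (Fin D.rank)} (hM : H39.coxM D = M) (l : List ℕ)
    (hl : ∀ i ∈ l, i < D.rank) (h : ∀ i < D.rank, wdN D l (D.simple i) < D.nroots / 2)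
    (h' : wdN D l (D.simple 0) ≠ D.neg (D.simple 0)) : Subgroup.center M.Group = ⊥ := by
  subst hM
  refine le_bot_iff.1 fun z hz => (center_cases hD hz).resolve_right fun e => h' ?_
  have hW := (rs D).wd_mem_W (finW D l)
  have h1 : (rs D).wd (finW D l) * coxρ hD z = 1 :=
    (rs D).eq_one_of_pos' (mul_mem hW (coxρ_mem hD z)) fun j => by
      rw [Equiv.Perm.mul_apply, e, (rs D).W_neg hW, RS.pos_neg_iff, rs_pos_iff, wd_finW hl, not_le]
      exact h j j.2
  have h0 : 0 < D.rank := lt_of_lt_of_le two_pos (Chev.two_le_rank (D := D))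
  have h2 := congrArg (fun w : Equiv.Perm _ => w ((rs D).sp ⟨0, h0⟩)) h1
  simp only [Equiv.Perm.mul_apply, e, (rs D).W_neg hW, Equiv.Perm.one_apply, RS.neg_eq_iff] at h2
  have := congrArg Fin.val h2
  rwa [wd_finW hl] at this

include hD in
theorem closure_eq_top_of_run {M : CoxeterMatrix (Fin D.rank)} (hM : H39.coxM D = M)
    (I : List (Fin D.rank)) (L : List (ℕ × List ℕ × ℕ × ℕ))
    (h : ∀ i < D.rank, D.simple i ∈ runSteps D (List.range D.rank) [] L
        (I.map (fun i : Fin D.rank => D.simple i) ++ I.map fun i : Fin D.rank => D.neg (D.simple i)) ∨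
      D.neg (D.simple i) ∈ runSteps D (List.range D.rank) [] L
        (I.map (fun i : Fin D.rank => D.simple i) ++ I.map fun i : Fin D.rank => D.neg (D.simple i)))
    {T : Set M.Group} (hT : ∀ i ∈ I, M.simple i ∈ T) :
    Subgroup.closure (({((List.finRange D.rank).map M.simple).prod} : Set M.Group) ∪ T) = ⊤ := by
  subst hM
  set K := Subgroup.closure (({((List.finRange D.rank).map (H39.coxM D).simple).prod} : Set _) ∪ T)
  have hI : ∀ i ∈ I, ReflIn D (K.map (coxρ hD)) (D.simple i) := fun i hi =>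
    ⟨1, one_mem _, i, rfl, _, Subgroup.subset_closure (Or.inr (hT i hi)), by simp [coxρ_simple]⟩
  have := W_le_of_run (K := K.map (coxρ hD)) (c := List.range D.rank) (by simp)
    ⟨_, Subgroup.subset_closure (Or.inl rfl), by rw [coxρ_prod, finW_range]⟩ (fun r hr => by
      simp only [List.mem_append, List.mem_map] at hr
      rcases hr with ⟨i, hi, rfl⟩ | ⟨i, hi, rfl⟩
      exacts [hI i hi, (hI i hi).neg]) L h
  refine top_le_iff.1 fun g _ => ?_
  obtain ⟨k, hk, e⟩ := this (coxρ_mem hD g)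
  exact coxρ_inj hD e ▸ hk

include hD in
theorem simple_inj {M : CoxeterMatrix (Fin D.rank)} (hM : H39.coxM D = M) :
    Function.Injective M.simple := by
  subst hM
  intro i j e
  exact (rs D).σ_inj (by rw [← coxρ_simple hD, ← coxρ_simple hD, e])

end Cfsg.Agent.H38
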