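import Cfsg.Agent.H38.TenF
import Cfsg.Agent.H56.OctStab

/-! The stabiliser `2^6 : S₃` in `M24` of the seven sextets refining a trio. -/

set_option autoImplicit false

namespace Cfsg.Agent.H38.MT

open Subgroup H15 H97 Equiv
open Cfsg.Agent.H14 (idx bits enc)
open scoped Pointwise

theorem exists_perm_hom {H α ι : Type*} [Group H] [MulAction H α] {o : ι → α}
    (inj : Function.Injective o) (h : ∀ (g : H) i, ∃ j, o j = g • o i) :
    ∃ f : H →* Perm ι, ∀ g i, o (f g i) = g • o i := by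
  choose m hm using h
  letI : MulAction H ι :=
    { smul := m
      one_smul := fun i => inj ((hm 1 i).trans (one_smul _ _))
      mul_smul := fun a b i => inj ((hm _ i).trans (by
        rw [mul_smul, ← hm b i]; exact (hm a _).symm)) }
  exact ⟨MulAction.toPermHom H ι, hm⟩

theorem perm3_cases : ∀ s : Perm (Fin 3), s = 1 ∨ s = swap 1 2 ∨ s = swap 0 2 ∨
    s = swap 1 2 * swap 0 2 ∨ s = swap 0 2 * swap 1 2 ∨ s = swap 1 2 * swap 0 2 * swap 1 2 := by
  decide

theorem perm3_inner (α : Perm (Fin 3) →* Perm (Fin 3)) (hα : Function.Injective α) :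
    ∃ s, ∀ t, α t = s * t * s⁻¹ := by
  have key : ∀ x y : Perm (Fin 3), x * x = 1 ∧ y * y = 1 ∧ x ≠ 1 ∧ y ≠ 1 ∧ x ≠ y →
      ∃ s : Perm (Fin 3), x = s * swap 1 2 * s⁻¹ ∧ y = s * swap 0 2 * s⁻¹ := by decide
  obtain ⟨s, h1, h2⟩ := key (α (swap 1 2)) (α (swap 0 2))
    ⟨by rw [← map_mul, swap_mul_self, map_one], by rw [← map_mul, swap_mul_self, map_one],
      by rw [Ne, map_eq_one_iff α hα]; decide, by rw [Ne, map_eq_one_iff α hα]; decide,
      by rw [Ne, hα.eq_iff]; decide⟩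
  refine ⟨s, fun t => ?_⟩
  rcases perm3_cases t with h | h | h | h | h | h <;> rw [h] <;>
    simp only [map_mul, map_one, h1, h2] <;> group

theorem exists_ext {G S : Type*} [Group G] [Group S] {N C : Subgroup G} (hC : C ≤ N)
    (hn : ∀ n ∈ N, ∀ c ∈ C, n * c * n⁻¹ ∈ C) (f : C →* S) (hf : Function.Surjective f)
    (hk : ∀ n (h : n ∈ N) (c : C), f c = 1 → f ⟨n * c * n⁻¹, hn n h c c.2⟩ = 1)
    (hZ : ∀ s : S, (∀ t, s * t = t * s) → s = 1)
    (hA : ∀ α : S →* S, Function.Injective α → ∃ s, ∀ t, α t = s * t * s⁻¹) :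
    ∃ F : N →* S, ∀ c : C, F ⟨c, hC c.2⟩ = f c := by
  have A : ∀ n : N, ∃ s, ∀ c : C, f ⟨n * c * (n : G)⁻¹, hn n n.2 c c.2⟩ = s * f c * s⁻¹ := fun n => by
    let cn : C →* C := MonoidHom.mk' (fun c => ⟨n * c * (n : G)⁻¹, hn n n.2 c c.2⟩)
      fun a b => Subtype.ext (by simp only [coe_mul]; group)
    obtain ⟨α, hα⟩ := exists_lift f hf (f.comp cn) (hk n n.2)
    obtain ⟨s, hs⟩ := hA α ((injective_iff_map_eq_one α).2 fun t ht => by
      obtain ⟨c, rfl⟩ := hf t
      have := hk _ (inv_mem n.2) (cn c) ((hα c).symm.trans ht)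
      rwa [show (⟨_, _⟩ : C) = c from Subtype.ext (by simp only [cn, MonoidHom.mk'_apply]; group)]
        at this)
    exact ⟨s, fun c => (hα c).symm.trans (hs _)⟩
  choose F hF using A
  have U : ∀ (n : N) s, (∀ c : C, f ⟨n * c * (n : G)⁻¹, hn n n.2 c c.2⟩ = s * f c * s⁻¹) →
      F n = s := fun n s h => inv_mul_eq_one.1 (hZ _ fun t => by
    obtain ⟨c, rfl⟩ := hf t
    have := (hF n c).symm.trans (h c)
    calc _ = (F n)⁻¹ * (s * f c * s⁻¹) * s := by group
      _ = _ := by rw [← this]; group)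
  refine ⟨MonoidHom.mk' F fun a b => U _ _ fun c => ?_, fun c => U _ _ fun d => ?_⟩
  · rw [show F a * F b * f c * (F a * F b)⁻¹ = F a * (F b * f c * (F b)⁻¹) * (F a)⁻¹ by group,
      ← hF, ← hF]
    exact congrArg f (Subtype.ext (by simp only [coe_mul]; group))
  · rw [← map_inv, ← map_mul, ← map_mul]; rfl

theorem eq_of_cw {X Y : Finset GolayPt} (h : IsCw (symmDiff X Y))
    (hc : X.card + Y.card < 8 + 2 * (X ∩ Y).card) : X = Y := by
  have c3 : (symmDiff X Y).card = (X \ Y).card + (Y \ X).card := by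
    rw [symmDiff_def, Finset.sup_eq_union, Finset.card_union_of_disjoint disjoint_sdiff_sdiff]
  have c4 := Finset.card_sdiff_add_card_inter X Y
  have c5 := Finset.card_sdiff_add_card_inter Y X
  rw [Finset.inter_comm] at c5
  have := h.card_cases
  exact symmDiff_eq_bot.1 (Finset.card_eq_zero.1 (by omega))

/-- the trio -/
def tO (i : Fin 3) : Finset GolayPt := bits (![8536111, 6889680, 1351424] i)

/-- tetrads of three sextets refining the trio -/
def tT (i j : Fin 3) : Finset GolayPt := bits (![![8405001, 8388615, 8519690],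
  ![4194512, 4268048, 2105488], ![1343744, 268544, 35584]] i j)

/-- base points -/
def tP (i : Fin 3) : GolayPt := ![none, some 4, some 8] i

theorem tO_cw : ∀ i, IsCw (tO i) := by decide +kernel
theorem tO_card : ∀ i, (tO i).card = 8 := by decide +kernel
theorem tT_sub : ∀ i j, tT i j ⊆ tO i := by decide +kernel
theorem tT_card : ∀ i j, (tT i j).card = 4 := by decide +kernel
theorem tP_mem : ∀ i j, tP i ∈ tT i j := by decide +kernel
theorem tT_cw : ∀ i m j, IsCw (symmDiff (tT i j) (tT m j)) := by decide +kernel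
theorem tO_cover : ∀ x, ∃ m, x ∈ tO m := by decide +kernel
theorem tO_disj : ∀ i j, ∀ x ∈ tO i, x ∈ tO j → i = j := by decide +kernel
theorem tT_union : ∀ i, (tT i 0 ∪ tT i 1).card = 6 := by decide +kernel
theorem tT_sep : ∀ x ∈ tO 0, ∀ y ∈ tO 0, (∀ j, x ∈ tT 0 j ↔ y ∈ tT 0 j) → x = y := by
  decide +kernel

theorem tP_mem' (i : Fin 3) : tP i ∈ tO i := tT_sub i 0 (tP_mem i 0)

theorem tO_inj : Function.Injective tO := fun i j h => tO_disj i j _ (tP_mem' i) (h ▸ tP_mem' i)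

/-- the elements fixing the three sextets -/
def Sg : Subgroup M24 where
  carrier := {σ | ∀ j, IsCw (symmDiff ((σ : Perm GolayPt) • tT 0 j) (tT 0 j))}
  one_mem' := fun j => by simpa using isCw_empty
  mul_mem' := fun {a b} ha hb j => by
    have := (isCw_smul a.2 (hb j)).symmDiff (ha j)
    rwa [Finset.smul_finset_symmDiff, symmDiff_assoc, symmDiff_symmDiff_cancel_left,
      ← mul_smul] at this
  inv_mem' := fun {a} ha j => by
    have := isCw_smul (a⁻¹).2 (ha j)
    rwa [Finset.smul_finset_symmDiff, coe_inv, inv_smul_smul, symmDiff_comm] at this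

theorem cw_move {σ : M24} {i m i' m' j : Fin 3}
    (h : IsCw (symmDiff ((σ : Perm GolayPt) • tT i j) (tT m j))) :
    IsCw (symmDiff ((σ : Perm GolayPt) • tT i' j) (tT m' j)) := by
  have := ((isCw_smul σ.2 (tT_cw i' i j)).symmDiff h).symmDiff (tT_cw m m' j)
  rwa [Finset.smul_finset_symmDiff, symmDiff_assoc, symmDiff_assoc, symmDiff_assoc,
    symmDiff_symmDiff_cancel_left, symmDiff_symmDiff_cancel_left] at this

theorem smul_tT {σ : M24} (h : σ ∈ Sg) {i m : Fin 3} (j : Fin 3)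
    (hm : (σ : Perm GolayPt) (tP i) ∈ tO m) : (σ : Perm GolayPt) • tT i j ⊆ tO m ∧
      ((σ : Perm GolayPt) (tP i) ∈ tT m j → (σ : Perm GolayPt) • tT i j = tT m j) := by
  have h1 : (σ : Perm GolayPt) (tP i) ∈ (σ : Perm GolayPt) • tT i j :=
    Finset.smul_mem_smul_finset (tP_mem i j)
  have h2 := cw_move (i' := i) (m' := m) (h j)
  have c : ((σ : Perm GolayPt) • tT i j).card = 4 := by rw [Finset.card_smul_finset, tT_card]
  have A : (σ : Perm GolayPt) (tP i) ∈ tT m j → (σ : Perm GolayPt) • tT i j = tT m j := fun h3 =>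
    eq_of_cw h2 (by
      have := Finset.card_pos.2 ⟨_, Finset.mem_inter.2 ⟨h1, h3⟩⟩
      rw [c, tT_card]; omega)
  refine ⟨?_, A⟩
  by_cases h3 : (σ : Perm GolayPt) (tP i) ∈ tT m j
  · exact A h3 ▸ tT_sub m j
  · have h4 := h2.symmDiff (tO_cw m)
    rw [symmDiff_assoc, symmDiff_of_le (tT_sub m j)] at h4
    rw [eq_of_cw h4 (by
      have := Finset.card_pos.2 ⟨_, Finset.mem_inter.2 ⟨h1, Finset.mem_sdiff.2 ⟨hm, h3⟩⟩⟩
      rw [c, Finset.card_sdiff_of_subset (tT_sub m j), tT_card, tO_card]; omega)]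
    exact Finset.sdiff_subset

theorem smul_tO {σ : M24} (h : σ ∈ Sg) {i m : Fin 3} (hm : (σ : Perm GolayPt) (tP i) ∈ tO m) :
    tO m = (σ : Perm GolayPt) • tO i := by
  refine eq_of_cw ((tO_cw m).symmDiff (isCw_smul σ.2 (tO_cw i))) ?_
  have := Finset.card_le_card (show (σ : Perm GolayPt) • (tT i 0 ∪ tT i 1) ⊆
      tO m ∩ (σ : Perm GolayPt) • tO i from Finset.subset_inter (by
    rw [Finset.smul_finset_union]
    exact Finset.union_subset (smul_tT h 0 hm).1 (smul_tT h 1 hm).1)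
    (Finset.smul_finset_subset_smul_finset (Finset.union_subset (tT_sub i 0) (tT_sub i 1))))
  rw [Finset.card_smul_finset, tT_union] at this
  rw [Finset.card_smul_finset, tO_card, tO_card]; omega

theorem exists_move (i : Fin 3) {x y : GolayPt} (hx : x ∉ tO i) (hy : y ∉ tO i) :
    ∃ e ∈ Sg, (∀ p ∈ tO i, (e : Perm GolayPt) p = p) ∧ (e : Perm GolayPt) x = y := by
  obtain ⟨e, h1, h2⟩ := H56.octK_trans (mem_octads (tO_cw i) (tO_card i)) hx hy
  obtain ⟨h3, h4⟩ := H56.mem_octK.1 h1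
  refine ⟨⟨e, h3⟩, fun j => cw_move (i := i) (m := i) ?_, h4, h2⟩
  have : e • tT i j = tT i j := by
    rw [Finset.smul_finset_def]
    exact (Finset.image_congr fun p hp => h4 p (tT_sub i j hp)).trans Finset.image_id
  simpa [this] using isCw_empty

theorem exists_tau : ∃ τ : Sg →* Perm (Fin 3), Function.Surjective τ ∧ Nat.card τ.ker = 64 := by
  obtain ⟨τ, hτ⟩ := exists_perm_hom (H := Sg) tO_inj fun σ i =>
    (tO_cover ((σ : M24).1 (tP i))).imp fun m hm => smul_tO σ.2 hm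
  have ev : ∀ (σ : Sg) i m, (σ : M24).1 (tP i) ∈ tO m → τ σ i = m := fun σ i m h =>
    tO_inj ((hτ σ i).trans (smul_tO σ.2 h).symm)
  have nm : ∀ i j, i ≠ j → ∀ x ∈ tO j, x ∉ tO i := fun i j h x h1 h2 => h (tO_disj i j x h2 h1)
  have mv : ∀ i j m : Fin 3, i ≠ j → i ≠ m → ∀ y ∈ tO m, ∃ e : Sg, τ e i = i ∧ τ e j = m ∧
      (∀ p ∈ tO i, (e : M24).1 p = p) ∧ (e : M24).1 (tP j) = y := fun i j m h1 h2 y hy => by
    obtain ⟨e, a1, a2, a3⟩ := exists_move i (nm i j h1 _ (tP_mem' j)) (nm i m h2 y hy)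
    exact ⟨⟨e, a1⟩, ev _ _ _ (by rw [a2 _ (tP_mem' i)]; exact tP_mem' i), ev _ _ _ (a3 ▸ hy), a2, a3⟩
  refine ⟨τ, ?_, ?_⟩
  · obtain ⟨a, a1, a2, -⟩ := mv 0 1 2 (by decide) (by decide) _ (tP_mem' 2)
    obtain ⟨b, b1, b2, -⟩ := mv 1 0 2 (by decide) (by decide) _ (tP_mem' 2)
    have ha : τ a = swap 1 2 := by revert a1 a2; generalize τ a = s; revert s; decide
    have hb : τ b = swap 0 2 := by revert b1 b2; generalize τ b = s; revert s; decide
    intro s
    rcases perm3_cases s with h | h | h | h | h | h <;> rw [h]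
    exacts [⟨1, map_one _⟩, ⟨a, ha⟩, ⟨b, hb⟩, ⟨a * b, by rw [map_mul, ha, hb]⟩,
      ⟨b * a, by rw [map_mul, ha, hb]⟩, ⟨a * b * a, by rw [map_mul, map_mul, ha, hb]⟩]
  have mem : ∀ (σ : τ.ker) i, ((σ : Sg) : M24).1 (tP i) ∈ tO i := fun σ i => by
    have := hτ σ i
    rw [show τ σ = 1 from σ.2, Perm.one_apply] at this
    rw [this]
    exact Finset.smul_mem_smul_finset (tP_mem' i)
  rw [Nat.card_congr (Equiv.ofBijective (fun σ : τ.ker => ((⟨_, mem σ 0⟩, ⟨_, mem σ 1⟩) :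
    tO 0 × tO 1)) ⟨fun a b h => ?_, fun ⟨x, y⟩ => ?_⟩), Nat.card_prod]
  · simp [tO_card]
  · have e : ∀ i, ((a : Sg) : M24).1 (tP i) = ((b : Sg) : M24).1 (tP i) →
        ((b⁻¹ * a : τ.ker) : Sg).1.1 (tP i) = tP i := fun i h => by
      simp only [coe_mul, coe_inv, Perm.mul_apply, h]
      exact Equiv.symm_apply_apply _ _
    have e0 := e 0 (congrArg (fun p => p.1.1) h)
    have e1 := e 1 (congrArg (fun p => p.2.1) h)
    refine (inv_mul_eq_one.1 ?_).symm
    generalize b⁻¹ * a = c at e0 e1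
    have h1 : c.1.1.1 ∈ H56.octK (tO 0) ⊓ MulAction.stabilizer _ (tP 1) := ⟨H56.mem_octK.2
      ⟨c.1.1.2, fun p hp => tT_sep _ (by
        rw [smul_tO c.1.2 (mem c 0)]; exact Finset.smul_mem_smul_finset hp) p hp fun j => by
          conv_lhs => rw [← (smul_tT c.1.2 j (mem c 0)).2 (e0.symm ▸ tP_mem 0 j)]
          exact Finset.smul_mem_smul_finset_iff _⟩, e1⟩
    rw [H56.octK_inf (mem_octads (tO_cw 0) (tO_card 0)) (nm 0 1 (by decide) _ (tP_mem' 1))] at h1
    exact Subtype.ext (Subtype.ext (Subtype.ext h1))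
  · obtain ⟨a, a1, a2, a3, a4⟩ := mv 0 1 1 (by decide) (by decide) _ y.2
    obtain ⟨b, b1, b2, b3, b4⟩ := mv 1 0 0 (by decide) (by decide) _ x.2
    have k : ∀ s : Perm (Fin 3), s 0 = 0 → s 1 = 1 → s = 1 := by decide
    refine ⟨⟨a * b, by rw [MonoidHom.mem_ker, map_mul, k _ a1 a2, k _ b2 b1, mul_one]⟩,
      Prod.ext (Subtype.ext ?_) (Subtype.ext ?_)⟩
    · change (a : M24).1 ((b : M24).1 (tP 0)) = x
      rw [b4, a3 _ x.2]
    · change (a : M24).1 ((b : M24).1 (tP 1)) = y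
      rw [b3 _ (tP_mem' 1), a4]

/-- four times the indicator of a set -/
def Is4 (v : leechLattice) (T : Finset GolayPt) : Prop := ∀ i, (v : Vec) i = if i ∈ T then 4 else 0

theorem cw_of_fix {v w : leechLattice} {T d : Finset GolayPt} (hv : Is4 v T) {hd : IsCw d} {σ : M24}
    (h : (signC d hd * permC σ) • v = v + (w + w)) : IsCw (symmDiff ((σ : Perm GolayPt) • T) T) := by
  convert tw_cw w using 1
  ext i
  have := congrArg (fun x : leechLattice => (x : Vec) i) h
  simp only [mul_smul, signC_apply, permC_apply, AddSubgroup.coe_add, Pi.add_apply, hv _] at this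
  rw [mem_tw, Finset.mem_symmDiff, mem_perm_smul]
  by_cases h1 : σ.1.symm i ∈ T <;> by_cases h2 : i ∈ T <;>
    simp only [h1, h2, if_true, if_false, not_true, not_false_eq_true, and_true, and_false, or_false,
      or_true, true_or, true_iff, false_iff] at this ⊢ <;> split_ifs at this <;> omega

theorem fix_of_cw {v : leechLattice} {T : Finset GolayPt} (hv : Is4 v T) {σ : M24}
    (h : IsCw (symmDiff ((σ : Perm GolayPt) • T) T)) : ∃ w, permC σ • v = v + (w + w) := by
  refine ⟨⟨vTwo ((σ : Perm GolayPt) • T) - vTwo T, mem_leech_of_even (fun i => ?_) ?_ ?_⟩,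
    Subtype.ext (funext fun i => ?_)⟩
  · simp only [Pi.sub_apply, vTwo]; split_ifs <;> rfl
  · simp only [Pi.sub_apply, vTwo, Finset.sum_sub_distrib, Finset.sum_ite_mem, Finset.univ_inter,
      Finset.sum_const, Finset.card_smul_finset, sub_self]; rfl
  · convert h using 1
    ext i
    rw [Finset.mem_filter, Finset.mem_symmDiff, Pi.sub_apply, vTwo, vTwo]
    split_ifs with h1 h2 h3 <;> simp [*]
  · simp only [permC_apply, AddSubgroup.coe_add, Pi.add_apply, Pi.sub_apply, vTwo, hv _,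
      mem_perm_smul]
    split_ifs <;> rfl

theorem bv_four (j : Fin 3) : Is4 (bv (.inl j.succ.succ)) (tT 0 j) := by
  have : ∀ j : Fin 3, ∀ i, bvv (.inl j.succ.succ) i = if i ∈ tT 0 j then 4 else 0 := by
    decide +kernel
  exact this j

theorem bv_one : bv (.inl 1) = e8 none := by
  rw [Subtype.ext_iff, e8_val]; decide +kernel

theorem bv_mod : ∀ k i, bvv (.inl k) i % 4 = 0 := by decide +kernel

theorem pm_of_fix {k : Co0} (hk : k ∈ monoN)
    (h : ∀ i j, ∃ w, k • w4 i j 1 rfl = w4 i j 1 rfl + (w + w)) : k = 1 ∨ k = negC := by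
  obtain ⟨a, ha, e⟩ := monoP_spec ⟨k, hk⟩
  obtain ⟨d, hd, rfl⟩ := mem_signG.1 ha
  generalize monoP ⟨k, hk⟩ = σ at e
  obtain rfl : k = _ := e
  have A : ∀ i j, i ≠ j → σ.1 i = i ∨ σ.1 i = j := fun i j hij => by
    obtain ⟨w, hw⟩ := h i j
    have h4 : Is4 (w4 i j 1 rfl) {i, j} := fun l => by
      rw [w4_apply]
      by_cases h1 : l = i <;> by_cases h2 : l = j <;> simp_all
    have := eq_of_cw (cw_of_fix h4 hw) (by
      rw [Finset.card_smul_finset, Finset.card_pair hij]; omega)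
    have h5 := Finset.smul_mem_smul_finset (a := σ.1) (Finset.mem_insert_self i {j})
    rw [this] at h5
    simpa using h5
  obtain rfl : σ = 1 := Subtype.ext (Equiv.ext fun i => by
    have : ∀ i : GolayPt, ∃ j l, i ≠ j ∧ i ≠ l ∧ j ≠ l := by decide +kernel
    obtain ⟨j, l, h1, h2, h3⟩ := this i
    exact (A i j h1).elim id fun h4 => (A i l h2).resolve_right fun h5 => h3 (h4.symm.trans h5))
  rw [permC_one, mul_one] at h ⊢
  have B : ∀ i j, i ∈ d ↔ j ∈ d := fun i j => (h i j).elim fun w hw => sign_w4 hd hw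
  by_cases h0 : none ∈ d
  · exact Or.inr (signC_congr (Finset.eq_univ_of_forall fun i => (B none i).1 h0))
  · exact Or.inl ((signC_congr (Finset.eq_empty_of_forall_notMem fun i hi =>
      h0 ((B none i).2 hi))).trans signC_empty)

end Cfsg.Agent.H38.MT
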