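import Cfsg.Agent.H38.FiveA
import Cfsg.Agent.H15.QuotSet
import Cfsg.Agent.H65.SLEmbed
import Cfsg.Agent.H9.SLBasic

/-! Groups of Monster type: the subgroup `2^(5+10+20).(S₃ × L₅(2))`. -/

set_option autoImplicit false

namespace Cfsg.Agent.H38.MT

open Subgroup H15 H97 Equiv
open scoped Matrix Pointwise

universe u

/-- the group `L₅(2)` -/
abbrev SL5 : Type := Matrix.SpecialLinearGroup (Fin 5) (ZMod 2)

theorem perfect_SL5 : commutator SL5 = ⊤ := H9.commutator_sl_eq_top (by simp)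

theorem nop_SL5 : H18.NoP 2 SL5 := by
  have hs : IsSimpleGroup SL5 := simple_of_center (card_eq_one.2 (eq_bot_iff.2 fun A hA => by
    obtain ⟨r, h1, h2⟩ := Matrix.SpecialLinearGroup.mem_center_iff.1 hA
    have : ∀ r : ZMod 2, r ^ Fintype.card (Fin 5) = 1 → r = 1 := by decide
    exact Subtype.ext (by rw [← h2, this r h1, map_one]; rfl))) (H9.psl_isSimpleGroup (by simp))
  refine fun U hn hp => hn.eq_bot_or_eq_top.resolve_right ?_
  rintro rfl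
  haveI := (hp.of_equiv topEquiv).isNilpotent
  exact (IsSolvable.commutator_lt_top_of_nontrivial SL5).ne perfect_SL5

theorem nop_S3 : H18.NoP 2 (Perm (Fin 3)) := fun U hn hp => eq_bot_iff.2 fun x hx => by
  have key : ∀ x : Perm (Fin 3), x = 1 ∨ ∃ g : Perm (Fin 3), x * (g * x * g⁻¹) ≠ 1 ∧
      (x * (g * x * g⁻¹)) ^ 3 = 1 := by decide +kernel
  refine (key x).resolve_right fun ⟨g, h1, h2⟩ => ?_
  obtain ⟨n, h⟩ := hp ⟨_, mul_mem hx (hn.conj_mem x hx g)⟩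
  exact h1 (eq_one_of_odd (by decide) h2 (congrArg Subtype.val h))

theorem exists_fix {G : Type*} [Group G] {Q A : Subgroup G} {z h : G} (L : LX Q z) (hA : A ≤ Q)
    (hz : z ∈ A) (hh : h * z = z * h) (H : ∀ a ∈ A, h * a * h⁻¹ = a ∨ h * a * h⁻¹ = z * a) :
    ∃ q ∈ Q, ∀ a ∈ A, a * (q * h) = q * h * a := by
  by_cases h0 : ∀ a ∈ A, h * a * h⁻¹ = a
  · exact ⟨1, one_mem _, fun a ha => by rw [one_mul, ← mul_inv_eq_iff_eq_mul.1 (h0 a ha)]⟩
  push Not at h0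
  obtain ⟨b, hb, h0⟩ := h0
  have h1 := (H b hb).resolve_left h0
  obtain ⟨x, hx, h2, h3⟩ := L.sep (A ⊓ centralizer {h}) (inf_le_left.trans hA)
    ⟨hz, mem_centralizer_singleton_iff.2 hh.symm⟩ b (hA hb) fun h' =>
      h0 (by rw [← mem_centralizer_singleton_iff.1 h'.2, mul_inv_cancel_right])
  refine ⟨x, hx, fun a ha => (H a ha).elim (fun h4 => ?_) fun h4 => ?_⟩
  · have h5 := mul_inv_eq_iff_eq_mul.1 h4
    rw [mul_assoc, h5, ← mul_assoc, ← mul_assoc,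
      h2 a ⟨ha, mem_centralizer_singleton_iff.2 h5.symm⟩]
  · have h5 := h2 (b⁻¹ * a) ⟨A.mul_mem (A.inv_mem hb) ha, mem_centralizer_singleton_iff.2 (by
      calc b⁻¹ * a * h = (z * b)⁻¹ * (z * a) * h := by group
        _ = _ := by rw [← h1, ← h4]; group)⟩
    have h6 : x * a * x⁻¹ = z * a := by
      calc x * a * x⁻¹ = x * b * x⁻¹ * (x * (b⁻¹ * a)) * x⁻¹ := by group
        _ = _ := by rw [h3, h5]; group
    calc a * (x * h) = z * (z * a) * (x * h) := by rw [← mul_assoc z, L.sq, one_mul]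
      _ = z * x * (a * h) := by rw [← h6]; group
      _ = x * (z * a * h) := by rw [← L.cen x hx]; group
      _ = _ := by rw [← h4]; group

theorem lab_single (k : I10) : lab (Pi.single k 1) = bv k := by
  rw [lab, Finset.sum_eq_single k (fun l _ h => by rw [Pi.single_eq_of_ne h]; exact zero_nsmul _)
    (by simp),
    Pi.single_eq_same]
  exact one_nsmul _

theorem elim_single (k : Fin 5) : (Sum.elim (Pi.single k 1) 0 : V10) = Pi.single (.inl k) 1 := by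
  revert k; decide +kernel

theorem lab_mem {A : AddSubgroup leechLattice} (h : ∀ k, bv (.inl k) ∈ A) (x : Fin 5 → ZMod 2) :
    lab (Sum.elim x 0) ∈ A := sum_mem fun k _ => by
  rcases k with k | k
  exacts [nsmul_mem (h k) _, (zero_nsmul (bv (.inr k))).symm ▸ zero_mem A]

variable {G : Type u} [Group G] {z : G} {Q : Subgroup G}
  {π : centralizer ({z} : Set G) →* Spor.Co1} {R : G → leechLattice → Prop}
  [Finite G] {M : MD z Q π R} {g : G} {h8 : R (g * z * g⁻¹) (e8 none)}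
  {s1 n : G} {Φ : V10 → G} (T : TS M h8 s1 n Φ)
include T

namespace TS

theorem add5 (x y : Fin 5 → ZMod 2) :
    Φ (Sum.elim (x + y) 0) = Φ (Sum.elim x 0) * Φ (Sum.elim y 0) := by
  rw [← T.add]; congr 1; funext k; rcases k with k | k <;> simp

theorem inj5 : Function.Injective fun x : Fin 5 → ZMod 2 => Φ (Sum.elim x 0) := fun x y h =>
  funext fun k => congrFun (T.inj h) (.inl k)

/-- the group `2^5` -/
def E5 : Subgroup G where
  carrier := {a | ∃ x, Φ (Sum.elim x 0) = a}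
  one_mem' := ⟨0, by rw [← T.zero]; congr 1; funext k; rcases k with k | k <;> rfl⟩
  mul_mem' := by
    rintro _ _ ⟨x, rfl⟩ ⟨y, rfl⟩
    exact ⟨_, T.add5 x y⟩
  inv_mem' := by
    rintro _ ⟨x, rfl⟩
    exact ⟨x, (inv_eq_of_mul_eq_one_right (EE_sq M h8 (T.phi_mem _))).symm⟩

/-- its centraliser -/
abbrev C5 : Subgroup G := centralizer (T.E5 : Set G)

/-- its normaliser -/
abbrev N5 : Subgroup G := normalizer (T.E5 : Set G)

theorem E5_le : T.E5 ≤ E10 M h8 := by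
  rintro _ ⟨x, rfl⟩
  exact T.phi_mem _

theorem lab5 (x : Fin 5 → ZMod 2) : R (Φ (Sum.elim x 0)) (MT.lab (Sum.elim x 0)) := T.lab _ rfl

theorem gen_mem (k : Fin 5) : ∃ b ∈ T.E5, R b (bv (.inl k)) :=
  ⟨_, ⟨Pi.single k 1, rfl⟩, by have := T.lab5 (Pi.single k 1); rwa [elim_single, lab_single,
    ← elim_single] at this⟩

theorem z_mem5 : z ∈ T.E5 := ⟨Pi.single 0 1, by rw [elim_single, T.zed]⟩

theorem s_mem5 : g * z * g⁻¹ ∈ T.E5 := by
  obtain ⟨b, h1, h2⟩ := T.gen_mem 1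
  rcases M.uniq h2 (bv_one ▸ h8) with h | h <;> rw [h]
  exacts [h1, mul_mem T.z_mem5 h1]

theorem E5_le_inf : T.E5 ≤ Q ⊓ cjs g Q := by
  rintro _ ⟨x, rfl⟩
  refine ⟨M.mem (T.lab5 x), mem_of_four M h8 (T.lab5 x) ?_⟩
  let A : AddSubgroup leechLattice :=
    { carrier := {v | ∀ i, (v : Vec) i % 4 = 0}
      zero_mem' := fun _ => rfl
      add_mem' := fun {a b} ha hb i => by
        have := ha i; have := hb i
        rw [AddSubgroup.coe_add, Pi.add_apply]; omega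
      neg_mem' := fun {a} ha i => by
        have := ha i
        rw [AddSubgroup.coe_neg, Pi.neg_apply]; omega }
  exact lab_mem (A := A) bv_mod x

theorem card_E5 : Nat.card T.E5 = 2 ^ 5 := by
  rw [← Nat.card_congr (Equiv.ofBijective (fun x => (⟨Φ (Sum.elim x 0), x, rfl⟩ : T.E5))
    ⟨fun x y h => T.inj5 (congrArg Subtype.val h), fun a => a.2.imp fun _ => Subtype.ext⟩)]
  simp

theorem C5_le : T.C5 ≤ centralizer ({z} : Set G) := fun _ h =>
  mem_centralizer_singleton_iff.2 (h z T.z_mem5).symm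

theorem inf_le_C5 : Q ⊓ cjs g Q ≤ T.C5 := fun _ h _ ha =>
  M.comm_inf (s_ne M h8) (M.mem h8 |> fun _ => (T.E5_le_inf ha).1) (T.E5_le_inf ha).2 h.1 h.2

theorem conj_C5 {m c : G} (hm : m ∈ T.N5) (hc : c ∈ T.C5) : m * c * m⁻¹ ∈ T.C5 := fun a ha => by
  have := hc _ (((inv_mem hm) a).1 ha)
  calc a * (m * c * m⁻¹) = m * (m⁻¹ * a * m⁻¹⁻¹ * c) * m⁻¹ := by group
    _ = _ := by rw [this]; group

theorem exists_lin : ∃ ρ : T.N5 →* SL5, Function.Surjective ρ ∧ ρ.ker = T.C5.subgroupOf _ := by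
  obtain ⟨ρ, hρ⟩ := exists_rho (N := T.N5) T.inj5 T.add5 fun m x => (m.2 _).1 ⟨x, rfl⟩
  have hd : ∀ u : GL (Fin 5) (ZMod 2), (u : Matrix (Fin 5) (Fin 5) (ZMod 2)).det = 1 := fun u =>
    (H15.zmod2_cases _).resolve_left (Matrix.isUnits_det_units u).ne_zero
  let ρ' : T.N5 →* SL5 := MonoidHom.mk' (fun m => ⟨ρ m, hd _⟩)
    fun a b => Subtype.ext (by rw [map_mul]; rfl)
  refine ⟨ρ', fun A => ?_, ?_⟩
  · obtain ⟨σ, h1, -, h2⟩ := T.exists_hom
    let ψ : SL5 →* Ga10 := (H65.hypHom (ι := Fin 5) (R := ZMod 2)).toHomUnits.codRestrict _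
      fun A v _ => H65.hypHom_dot A v
    have : ψ A ∈ Om10 := by
      have := mem_map_of_mem ψ (perfect_SL5.ge (mem_top A))
      rw [commutator_def, map_commutator] at this
      exact commutator_mono le_top le_top this
    obtain ⟨m, hm⟩ := h1.ge this
    have h3 : ∀ x, Φ (Sum.elim (A.1 *ᵥ x) 0) = m * Φ (Sum.elim x 0) * (m : G)⁻¹ := fun x => by
      rw [← h2, hm]
      change _ = Φ (H65.hypHom A *ᵥ _)
      rw [H65.hypHom_apply, Matrix.fromBlocks_mulVec]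
      simp
    exact ⟨⟨m, mem_normalizer_fintype (by rintro _ ⟨x, rfl⟩; exact ⟨_, h3 x⟩)⟩,
      Subtype.ext (Matrix.ext_iff_mulVec.2 fun x => T.inj5 ((hρ _ x).trans (h3 x).symm))⟩
  · ext m
    constructor
    · rintro h _ ⟨x, rfl⟩
      have := hρ m x
      rw [show (ρ m : Matrix (Fin 5) (Fin 5) (ZMod 2)) = 1 from congrArg Subtype.val h,
        Matrix.one_mulVec] at this
      exact eq_mul_inv_iff_mul_eq.1 this
    · exact fun h => Subtype.ext (Matrix.ext_iff_mulVec.2 fun x => T.inj5 ((hρ m x).trans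
        ((mul_inv_eq_iff_eq_mul.2 (h _ ⟨x, rfl⟩).symm).trans
          (congrArg (fun y => Φ (Sum.elim y 0)) (Matrix.one_mulVec x).symm))))

theorem fix_gen {c : G} {k : Co0} (hc : c ∈ T.C5) (ho : Ov π c k) (j : Fin 5) :
    ∃ w, k • bv (.inl j) = bv (.inl j) + (w + w) := by
  obtain ⟨b, h1, h2⟩ := T.gen_mem j
  have := ho.lab M h2
  rw [← hc b h1, mul_inv_cancel_right] at this
  exact M.congr h2 this

theorem mem_mono {c : G} {k : Co0} (hc : c ∈ T.C5) (ho : Ov π c k) : k ∈ monoN :=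
  (mem_monoN_iff_congr none).2 (bv_one ▸ T.fix_gen hc ho 1)

theorem lift_Sg {σ : M24} (h : σ ∈ Sg) : ∃ c ∈ T.C5, Ov π c (permC σ) := by
  obtain ⟨c, hc⟩ := ov_lift M (permC σ)
  let A : AddSubgroup leechLattice :=
    { carrier := {v | ∃ w, permC σ • v = v + (w + w)}
      zero_mem' := ⟨0, by simp [co0_smul_zero]⟩
      add_mem' := fun ⟨w, ha⟩ ⟨u, hb⟩ => ⟨w + u, by rw [co0_smul_add, ha, hb]; abel⟩
      neg_mem' := fun ⟨w, ha⟩ => ⟨-w, by rw [co0_smul_neg, ha]; abel⟩ }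
  have hA : ∀ k, bv (.inl k) ∈ A := Fin.cases (bv_zero.1 ▸ zero_mem A) (Fin.cases
    (bv_one.symm ▸ (mem_monoN_iff_congr none).1 (permC_mem_monoN σ))
    fun j => fix_of_cw (bv_four j) (h j))
  obtain ⟨q, hq, h1⟩ := exists_fix M.lx (T.E5_le_inf.trans inf_le_left) T.z_mem5 hc.comm (by
    rintro _ ⟨x, rfl⟩
    obtain ⟨w, hw⟩ := lab_mem hA x
    exact M.uniq (M.add_two (T.lab5 x) w) (hw ▸ hc.lab M (T.lab5 x)))
  exact ⟨_, h1, by simpa using (ov_one M hq).mul hc⟩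

theorem exists_chi : ∃ χ : T.C5 →* Sg, Function.Surjective χ ∧
    ∀ (c : T.C5) k, Ov π c k → (χ c = 1 ↔ k ∈ signG) := by
  have hr : ∀ a : T.C5, ∃ k : monoN, ((k : Co0) : Spor.Co1) = π (inclusion T.C5_le a) := fun a => by
    obtain ⟨k, e⟩ := ov_ex π (T.C5_le a.2)
    exact ⟨⟨k, T.mem_mono a.2 e⟩, e.2⟩
  obtain ⟨χ, hχ⟩ := exists_hom_of_range ((QuotientGroup.mk' _).comp monoN.subtype)
    (π.comp (inclusion T.C5_le)) hr monoP fun k e => (monoP_eq_one_iff k).2 (by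
      rcases mem_center_iff'.1 ((QuotientGroup.eq_one_iff _).1 e) with e | e
      · exact (show (k : Co0) = 1 from e) ▸ signG.one_mem
      · exact (show (k : Co0) = negC from e) ▸ negC_mem_signG)
  have hm : ∀ c, χ c ∈ Sg := fun c j => by
    obtain ⟨k, e⟩ := hr c
    obtain ⟨a, ha, e'⟩ := monoP_spec k
    obtain ⟨d, hd, rfl⟩ := mem_signG.1 ha
    obtain ⟨w, hw⟩ := T.fix_gen c.2 ⟨T.C5_le c.2, e⟩ j.succ.succ
    rw [hχ c k e]
    exact cw_of_fix (bv_four j) (e' ▸ hw)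
  refine ⟨χ.codRestrict _ hm, fun σ => ?_, fun c k ho => ?_⟩
  · obtain ⟨c, h1, h2⟩ := T.lift_Sg σ.2
    exact ⟨⟨c, h1⟩, Subtype.ext ((hχ ⟨c, h1⟩ ⟨_, permC_mem_monoN σ⟩ h2.2).trans (monoP_permC σ))⟩
  · rw [Subtype.ext_iff]
    exact (iff_of_eq (congrArg (· = 1) (hχ c ⟨k, T.mem_mono c.2 ho⟩ ho.2))).trans
      (monoP_eq_one_iff _)

theorem card_ker {χ : T.C5 →* Sg} (h : ∀ (c : T.C5) k, Ov π c k → (χ c = 1 ↔ k ∈ signG)) :
    Nat.card χ.ker = 2 ^ 29 := by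
  have L := lx_cjs M.lx g
  obtain ⟨p1, p2⟩ := M.pb_A (M.mem h8) (s_ne M h8) h8
  have c1 := (ex_of_lx M.lx).card_cent (T.E5_le_inf.trans inf_le_left) T.z_mem5
  have c2 := (ex_of_lx L).card_cent (T.E5_le_inf.trans inf_le_right) T.s_mem5
  have c3 := M.card_pb (H := cjs g Q ⊓ T.C5) (inf_le_right.trans T.C5_le)
  have c4 := M.card_pb (H := χ.ker.map T.C5.subtype) ((map_subtype_le _).trans T.C5_le)
  have e1 : cjs g Q ⊓ T.C5 ⊓ Q = Q ⊓ cjs g Q := le_antisymm (fun a ha => ⟨ha.2, ha.1.1⟩)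
    fun a ha => ⟨⟨ha.2, T.inf_le_C5 ha⟩, ha.1⟩
  have e2 : χ.ker.map T.C5.subtype ⊓ Q = Q ⊓ T.C5 := le_antisymm
    (fun a ha => ⟨ha.2, map_subtype_le _ ha.1⟩)
    fun a ha => ⟨⟨⟨a, ha.2⟩, (h _ _ (ov_one M ha.1)).2 (one_mem _), rfl⟩, ha.1⟩
  have e3 : pb π (χ.ker.map T.C5.subtype) = pb π (cjs g Q ⊓ T.C5) := by
    ext k
    rw [mem_pb, mem_pb]
    constructor
    · rintro ⟨c, ⟨c', h1, e⟩, h2⟩
      have ho : Ov π c' k := by rw [show (c' : G) = c from e]; exact ⟨c.2, h2⟩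
      obtain ⟨r, h3, h4⟩ := mem_pb.1 (p1.ge ((h _ _ ho).1 h1))
      refine ⟨r, ⟨h3.1, fun a ha => (mul_inv_eq_iff_eq_mul.1 ?_).symm⟩, h4⟩
      have hq := ho.quot M ⟨r.2, h4⟩
      have h5 : (r : G) * a * (r : G)⁻¹ = (c' * (r : G)⁻¹)⁻¹ * a * (c' * (r : G)⁻¹)⁻¹⁻¹ := by
        calc _ = (r : G) * (c' : G)⁻¹ * (c' * a) * (r : G)⁻¹ := by group
          _ = _ := by rw [← c'.2 a ha]; group
      refine (L.comm r h3.1 a (T.E5_le_inf ha).2).elim id fun h6 => ?_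
      refine h5 ▸ (M.lx.comm _ (inv_mem hq) a (T.E5_le_inf ha).1).resolve_right fun h7 => ?_
      exact s_ne M h8 (mul_right_cancel (h6.symm.trans (h5.trans h7)))
    · rintro ⟨c, h1, h2⟩
      exact ⟨c, ⟨⟨c, h1.2⟩, (h _ _ ⟨c.2, h2⟩).2 (p1.le (mem_pb.2 ⟨c, ⟨h1.1, c.2⟩, h2⟩)), rfl⟩, h2⟩
  rw [T.card_E5, M.card] at c1
  rw [T.card_E5, card_cjs, M.card] at c2
  have d1 : Nat.card ↥(Q ⊓ centralizer (T.E5 : Set G)) = 2 ^ 21 := by omega
  have d2 : Nat.card ↥(cjs g Q ⊓ centralizer (T.E5 : Set G)) = 2 ^ 21 := by omega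
  rw [e1, p2, d2] at c3
  have d3 : Nat.card ↥(pb π (cjs g Q ⊓ T.C5)) = 2 ^ 9 := by omega
  rw [e2, e3, card_map_of_injective (subtype_injective _), d1, d3] at c4
  omega

theorem mem_E5 {y : G} (hy : y ∈ T.C5) (h : ∀ x ∈ Q ⊓ T.C5, x * y = y * x) : y ∈ T.E5 := by
  obtain ⟨k, ho⟩ := ov_ex π (T.C5_le hy)
  have hQ : y ∈ Q := by
    rcases pm_of_fix (T.mem_mono hy ho) (fun i j => by
      obtain ⟨b, hb⟩ := M.ex' (w4 i j 1 rfl)
      have := ho.lab M hb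
      rw [← h b ⟨M.mem hb, T.inf_le_C5 ⟨M.mem hb, mem_of_four M h8 hb fun l => by
        rw [w4_apply]; split_ifs <;> rfl⟩⟩, mul_inv_cancel_right] at this
      exact M.congr hb this) with rfl | rfl
    exacts [ho.one M, (negC_sq ▸ ho.neg).one M]
  by_contra hn
  obtain ⟨x, hx, h1, h2⟩ := M.lx.sep _ (T.E5_le_inf.trans inf_le_left) T.z_mem5 y hQ hn
  rw [h x ⟨hx, fun a ha => (h1 a ha).symm⟩, mul_inv_cancel_right] at h2
  exact z_mul_ne M y h2.symm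

theorem shape5 : ∃ (E N : Subgroup G) (O : Subgroup N), IsElementaryAbelian 2 E ∧
    Nat.card E = 2 ^ 5 ∧ N = normalizer (E : Set G) ∧ O = pCore 2 N ∧ Nat.card O = 2 ^ 35 ∧
    (center O).map O.subtype = E.subgroupOf N ∧
    ∃ _ : O.Normal, Nonempty (N ⧸ O ≃* Perm (Fin 3) × SL5) := by
  obtain ⟨ρ, r1, r2⟩ := T.exists_lin
  obtain ⟨χ, x1, x2⟩ := T.exists_chi
  obtain ⟨τ, t1, t2⟩ := exists_tau
  have hCN : T.C5 ≤ T.N5 := centralizer_le_normalizer _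
  have cd : ∀ {A B : Type u} {B : Type} [Group A] [Group B] (f : A →* B), Function.Surjective f →
      Nat.card f.ker * Nat.card B = Nat.card A := fun f hf => by
    rw [← card_ker_mul_range f, MonoidHom.range_eq_top.2 hf, card_top]
  have c1 := cd (B := G) χ x1
  have c2 := card_ker_mul_range τ
  have c3 := cd (B := G) (τ.comp χ) (t1.comp x1)
  have c6 : Nat.card (Perm (Fin 3)) = 6 := by rw [Nat.card_perm, Nat.card_fin]; rfl
  rw [MonoidHom.range_eq_top.2 t1, card_top, t2, c6] at c2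
  rw [T.card_ker x2, ← c2] at c1
  rw [← c1, c6] at c3
  have hp : IsPGroup 2 (τ.comp χ).ker := IsPGroup.of_card (n := 35) (by omega)
  obtain ⟨F, hF⟩ := exists_ext hCN (fun m hm c hc => T.conj_C5 hm hc) (τ.comp χ) (t1.comp x1)
    (fun m hm c hc => by
      let cn : T.C5 →* T.C5 := MonoidHom.mk' (fun c => ⟨m * c * m⁻¹, T.conj_C5 hm c.2⟩)
        fun a b => Subtype.ext (by simp only [coe_mul]; group)
      have hs : Function.Surjective cn := fun c => ⟨⟨_, T.conj_C5 (inv_mem hm) c.2⟩,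
        Subtype.ext (by simp only [cn, MonoidHom.mk'_apply]; group)⟩
      exact (nop_S3 _ ((inferInstance : (τ.comp χ).ker.Normal).map ((τ.comp χ).comp cn)
        ((t1.comp x1).comp hs)) (hp.map _)).le (mem_map_of_mem _ hc))
    (by decide) perm3_inner
  have hφ : Function.Surjective (F.prod ρ) := fun ⟨s, A⟩ => by
    obtain ⟨m, rfl⟩ := r1 A
    obtain ⟨c, hc⟩ := (t1.comp x1) (s * (F m)⁻¹)
    refine ⟨⟨c, hCN c.2⟩ * m, Prod.ext ?_ ?_⟩
    · change F _ = s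
      rw [map_mul, hF, show (τ.comp χ) c = _ from hc, inv_mul_cancel_right]
    · change ρ _ = ρ m
      rw [map_mul, show ρ ⟨c, hCN c.2⟩ = 1 from r2.ge c.2, one_mul]
  have c4 := cd (B := G) ρ r1
  have c5 := cd (B := G) _ hφ
  rw [r2, Nat.card_congr (subgroupOfEquivOfLe hCN).toEquiv, ← c1] at c4
  rw [← c4, Nat.card_prod, c6, ← mul_assoc, mul_left_inj' Nat.card_pos.ne'] at c5
  have c7 : Nat.card (F.prod ρ).ker = 2 ^ 35 := by omega
  have hk : ∀ y ∈ (F.prod ρ).ker, (y : G) ∈ T.C5 := fun y hy => r2.le (congrArg Prod.snd hy)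
  have hq : ∀ x (h : x ∈ Q ⊓ T.C5), (⟨x, hCN h.2⟩ : T.N5) ∈ (F.prod ρ).ker := fun x h =>
    Prod.ext ((hF ⟨x, h.2⟩).trans (by
      rw [MonoidHom.comp_apply, (x2 _ _ (ov_one M h.1)).2 (one_mem _), map_one]; rfl)) (r2.ge h.2)
  refine ⟨T.E5, T.N5, (F.prod ρ).ker, ⟨⟨⟨fun a b => Subtype.ext
    (EE_comm M h8 (T.E5_le a.2) (T.E5_le b.2))⟩⟩, fun a ha => by rw [sq, EE_sq M h8 (T.E5_le ha)]⟩,
    T.card_E5, rfl, ((nop_S3.prod nop_SL5).pCore_eq hφ (IsPGroup.of_card c7)).symm, c7, ?_,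
    H18.quot_equiv hφ rfl⟩
  ext y
  constructor
  · rintro ⟨x, hx, rfl⟩
    exact T.mem_E5 (hk _ x.2) fun a ha => congrArg (fun t => t.1.1)
      (mem_center_iff.1 hx ⟨_, hq a ha⟩)
  · exact fun hy => ⟨⟨y, hq y ⟨(T.E5_le_inf hy).1, T.inf_le_C5 (T.E5_le_inf hy)⟩⟩,
      mem_center_iff.2 fun a => Subtype.ext (Subtype.ext (hk _ a.2 _ hy).symm), rfl⟩

end TS

end Cfsg.Agent.H38.MT
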