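import Cfsg.Agent.H69.GenBound
import Mathlib.RepresentationTheory.Basic
import Mathlib.LinearAlgebra.Matrix.GeneralLinearGroup.Card
import Mathlib.LinearAlgebra.Eigenspace.Zero

/-! Faithful `𝔽₂ G`-modules: ranks of `ρ x - 1`, Zsigmondy bounds, free modules for Frobenius
groups, unipotent elements of large order. -/

set_option autoImplicit false
set_option linter.style.haveILetI false

namespace Cfsg.Agent.H38.SEM

open Module Subgroup

variable {G : Type*} [Group G] {V : Type*} [AddCommGroup V] [Module (ZMod 2) V]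

theorem dvd_of_free {Γ Ω : Type*} [Group Γ] [MulAction Γ Ω] (X : Set Ω)
    (hinv : ∀ (γ : Γ), ∀ x ∈ X, γ • x ∈ X) (hfree : ∀ (γ : Γ), ∀ x ∈ X, γ • x = x → γ = 1) :
    Nat.card Γ ∣ X.ncard := by
  let Y : SubMulAction Γ Ω := ⟨X, fun γ x hx => hinv γ x hx⟩
  have e := MulAction.selfEquivOrbitsQuotientProd (G := Γ) (X := Y) (fun b => by
    rw [eq_bot_iff]
    intro γ hγ
    exact hfree γ b.1 b.2 (congrArg Subtype.val hγ))
  have h := Nat.card_congr e
  rw [Nat.card_prod] at h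
  change Nat.card X = _ at h
  rw [← Nat.card_coe_set_eq, h]
  exact Dvd.intro_left _ rfl

/-- The rank of `ρ x - 1`. -/
noncomputable def rk (ρ : Representation (ZMod 2) G V) (x : G) : ℕ :=
  finrank (ZMod 2) (LinearMap.range (ρ x - 1))

variable [Module.Finite (ZMod 2) V] (ρ : Representation (ZMod 2) G V)

theorem rk_le (x : G) : rk ρ x ≤ finrank (ZMod 2) V := Submodule.finrank_le _

theorem rk_mul (x y : G) : rk ρ (x * y) ≤ rk ρ x + rk ρ y := by
  have h : LinearMap.range (ρ (x * y) - 1) ≤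
      LinearMap.range (ρ x - 1) ⊔ LinearMap.range (ρ y - 1) := by
    rintro _ ⟨v, rfl⟩
    have : (ρ (x * y) - 1) v = (ρ x - 1) (ρ y v) + (ρ y - 1) v := by simp
    rw [this]
    exact Submodule.add_mem_sup ⟨_, rfl⟩ ⟨_, rfl⟩
  exact (Submodule.finrank_mono h).trans (Submodule.finrank_add_le_finrank_add_finrank _ _)

theorem rk_conj (g x : G) : rk ρ (g * x * g⁻¹) ≤ rk ρ x := by
  have h : LinearMap.range (ρ (g * x * g⁻¹) - 1) ≤ (LinearMap.range (ρ x - 1)).map (ρ g) := by
    rintro _ ⟨v, rfl⟩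
    refine ⟨_, ⟨ρ g⁻¹ v, rfl⟩, ?_⟩
    simp
  exact (Submodule.finrank_mono h).trans (Submodule.finrank_map_le _ _)

theorem rk_pow (x : G) (i : ℕ) : rk ρ (x ^ i) ≤ rk ρ x := by
  refine Submodule.finrank_mono ?_
  induction i with
  | zero => rintro _ ⟨v, rfl⟩; simp
  | succ i ih =>
    rintro _ ⟨v, rfl⟩
    have : (ρ (x ^ (i + 1)) - 1) v = (ρ x - 1) (ρ (x ^ i) v) + (ρ (x ^ i) - 1) v := by
      simp [pow_succ']
    rw [this]
    exact Submodule.add_mem _ ⟨_, rfl⟩ (ih ⟨_, rfl⟩)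

theorem rk_one : rk ρ 1 = 0 := by simp [rk]

variable {ρ}

theorem rk_pos (hρ : Function.Injective ρ) {x : G} (hx : x ≠ 1) : 0 < rk ρ x := by
  rw [rk, Nat.pos_iff_ne_zero, Ne, Submodule.finrank_eq_zero, LinearMap.range_eq_bot, sub_eq_zero,
    ← map_one ρ]
  exact fun h => hx (hρ h)

theorem card_sub (W : Submodule (ZMod 2) V) : Nat.card W = 2 ^ finrank (ZMod 2) W := by
  rw [Module.natCard_eq_pow_finrank (K := ZMod 2), Nat.card_zmod]

theorem rk_bound [Finite G] (hρ : Function.Injective ρ) {N m : ℕ} (h : H69.PrimPow 2 N m) {x : G}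
    (hm : m ∣ orderOf x) : N ≤ rk ρ x := by
  haveI : Finite V := Module.finite_of_finite (ZMod 2)
  obtain ⟨r, j, hr, hr2, rfl⟩ := h.pp
  haveI := Fact.mk hr
  obtain ⟨e, he⟩ := hm
  have he0 : e ≠ 0 := by
    rintro rfl
    exact (orderOf_pos x).ne' (by simpa using he)
  have hg : orderOf (x ^ e) = r ^ (j + 1) := by
    rw [orderOf_pow' _ he0, he, Nat.gcd_mul_left_left, Nat.mul_div_cancel _ (Nat.pos_of_ne_zero he0)]
  have h1 : (x ^ e) ^ r ^ j ≠ 1 := fun e1 => by
    have := Nat.le_of_dvd (pow_pos hr.pos _) (hg ▸ orderOf_dvd_of_pow_eq_one e1)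
    exact absurd this (not_le.2 (Nat.pow_lt_pow_right hr.one_lt (by omega)))
  refine le_trans ?_ ((rk_pow ρ _ (r ^ j)).trans (rk_pow ρ x e))
  generalize x ^ e = g at hg h1
  set C := LinearMap.ker (ρ (g ^ r ^ j) - 1) with hC
  have hCm : ∀ v, v ∈ C ↔ ρ (g ^ r ^ j) v = v := fun v => by
    rw [hC, LinearMap.mem_ker, LinearMap.sub_apply, sub_eq_zero]; rfl
  letI : MulAction (zpowers g) V := MulAction.compHom V (ρ.comp (zpowers g).subtype)
  have hs : ∀ (γ : zpowers g) (v : V), γ • v = ρ γ v := fun _ _ => rfl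
  have hd := dvd_of_free (Γ := zpowers g) ((C : Set V)ᶜ) (fun γ v hv hc => hv (by
      obtain ⟨i, hi⟩ := mem_zpowers_iff.1 γ.2
      have hcm : g ^ r ^ j * γ = γ * g ^ r ^ j := by
        rw [← hi]; exact ((Commute.refl g).pow_left _ |>.zpow_right _).eq
      rw [SetLike.mem_coe, hCm, hs, ← Module.End.mul_apply, ← map_mul, hcm, map_mul,
        Module.End.mul_apply] at hc
      have := congrArg (ρ (γ : G)⁻¹) hc
      rw [SetLike.mem_coe, hCm]
      simpa using this)) (fun γ v hv hf => by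
      by_contra hγ
      apply hv
      let K : Subgroup G := (MulAction.stabilizer (zpowers g) v).map (zpowers g).subtype
      obtain ⟨i, hi⟩ := (mem_powers_iff_mem_zpowers.2 γ.2 : (γ : G) ∈ Submonoid.powers g)
      have hi' : g ^ i = γ := hi
      have ha : g ^ i ∈ K := ⟨γ, hf, hi'.symm⟩
      have hb : g ^ r ^ (j + 1) ∈ K := by rw [← hg, pow_orderOf_eq_one]; exact K.one_mem
      have hc := H69.pow_gcd_mem ha hb
      obtain ⟨a, ha1, ha2⟩ := (Nat.dvd_prime_pow hr).1 (Nat.gcd_dvd_right i (r ^ (j + 1)))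
      have haj : a ≤ j := by
        by_contra hh
        obtain rfl : a = j + 1 := by omega
        have : orderOf g ∣ i := hg ▸ ha2 ▸ Nat.gcd_dvd_left _ _
        exact hγ (Subtype.ext (hi'.symm.trans (orderOf_dvd_iff_pow_eq_one.1 this)))
      rw [ha2] at hc
      have h2 := K.pow_mem hc (r ^ (j - a))
      rw [← pow_mul, ← pow_add, Nat.add_sub_cancel' haj] at h2
      obtain ⟨δ, hδ, e⟩ := h2
      rw [SetLike.mem_coe, hCm, ← e]
      exact hδ)
  have hrk := LinearMap.finrank_range_add_finrank_ker (ρ (g ^ r ^ j) - 1)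
  have hpos := rk_pos hρ h1
  rw [Nat.card_zpowers, hg, Set.ncard_compl, ← Nat.card_coe_set_eq,
    Module.natCard_eq_pow_finrank (K := ZMod 2), Nat.card_zmod] at hd
  change _ ∣ _ - Nat.card C at hd
  rw [card_sub, ← hrk, ← hC, pow_add 2, ← Nat.sub_one_mul] at hd
  have hco : (r ^ (j + 1)).Coprime (2 ^ finrank (ZMod 2) C) :=
    Nat.Coprime.pow _ _ ((Nat.coprime_primes hr Nat.prime_two).2 hr2)
  by_contra hlt
  exact h.nd _ hpos (not_le.1 hlt) (hco.dvd_of_dvd_mul_right hd)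

theorem rk_list [Finite G] (hρ : Function.Injective ρ) {N m : ℕ} (h : H69.PrimPow 2 N m)
    {M : Subgroup G} {X : Type*} [Group X] (φ : M →* X) (hφ : Function.Surjective φ) (s : M)
    (l : List X) (hm : m ∣ orderOf (l.map fun g => g * φ s * g⁻¹).prod) :
    N ≤ l.length * rk ρ s ∧ N ≤ finrank (ZMod 2) V := by
  obtain ⟨l', rfl⟩ : ∃ l' : List M, l'.map φ = l := List.map_surjective_iff.2 hφ l
  have e : ((l'.map φ).map fun g => g * φ s * g⁻¹).prod =
      φ (l'.map fun g => g * s * g⁻¹).prod := by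
    rw [map_list_prod, List.map_map, List.map_map]
    congr 1
    exact List.map_congr_left fun g _ => by simp
  rw [e] at hm
  have h1 := rk_bound hρ h (x := ((l'.map fun g => g * s * g⁻¹).prod : M))
    (by rw [orderOf_coe]; exact hm.trans (orderOf_map_dvd φ _))
  refine ⟨h1.trans ?_, h1.trans (rk_le ρ _)⟩
  rw [List.length_map]
  clear h1 hm e
  induction l' with
  | nil => simp [rk_one]
  | cons g l ih =>
    rw [List.map_cons, List.prod_cons, coe_mul, List.length_cons, add_mul, one_mul, add_comm]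
    exact (rk_mul ρ _ _).trans (add_le_add (rk_conj ρ _ _) ih)

theorem two_end : (2 : Module.End (ZMod 2) V) = 0 := by
  rw [← map_ofNat (algebraMap (ZMod 2) (Module.End (ZMod 2) V)) 2]
  exact (congrArg _ (by decide : (2 : ZMod 2) = 0)).trans (map_zero _)

theorem lt_of_orderOf (hρ : Function.Injective ρ) {x : G} {j : ℕ} (hx : orderOf x = 2 ^ (j + 1)) :
    2 ^ j < finrank (ZMod 2) V := by
  have key : ∀ i, (ρ x - 1) ^ 2 ^ i = ρ (x ^ 2 ^ i) - 1 := fun i => by
    induction i with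
    | zero => simp
    | succ i ih =>
      rw [pow_succ, pow_mul, ih, pow_mul, map_pow ρ _ 2]
      generalize ρ (x ^ 2 ^ i) = A
      have : (A - 1) ^ 2 = A ^ 2 - 1 + 2 * (1 - A) := by noncomm_ring
      rw [this, two_end, zero_mul, add_zero]
  have hn : IsNilpotent (ρ x - 1) := ⟨2 ^ (j + 1), by
    rw [key, ← hx, pow_orderOf_eq_one, map_one, sub_self]⟩
  have h0 := LinearMap.aeval_self_charpoly (ρ x - 1)
  rw [(LinearMap.isNilpotent_iff_charpoly _).1 hn, map_pow, Polynomial.aeval_X] at h0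
  by_contra hle
  have h1 := pow_eq_zero_of_le (not_lt.1 hle) h0
  rw [key, sub_eq_zero, ← map_one ρ] at h1
  have := Nat.le_of_dvd (by positivity) (hx ▸ orderOf_dvd_of_pow_eq_one (hρ h1))
  exact absurd this (not_le.2 (Nat.pow_lt_pow_right one_lt_two (by omega)))

theorem zmod_two : ∀ c : ZMod 2, c ≠ 0 → c = 1 := by decide

theorem card_le_of_norm [Finite G] {S : Subgroup G} (hS : IsPGroup 2 S) [Fintype S] {v : V}
    (hv : ∑ s : S, ρ s v ≠ 0) : Nat.card S ≤ finrank (ZMod 2) V := by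
  classical
  haveI : Fact (Nat.Prime 2) := ⟨Nat.prime_two⟩
  let φ : (S → ZMod 2) →ₗ[ZMod 2] V := Fintype.linearCombination (ZMod 2) fun s : S => ρ s v
  have hφ : ∀ a, φ a = ∑ s : S, a s • ρ s v := fun a => Fintype.linearCombination_apply _ _ _
  suffices h : Function.Injective φ by
    have := LinearMap.finrank_le_finrank_of_injective h
    rwa [Module.finrank_fintype_fun_eq_card, ← Nat.card_eq_fintype_card] at this
  rw [← LinearMap.ker_eq_bot]
  by_contra hK
  letI : MulAction S (LinearMap.ker φ) :=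
    { smul := fun g a => ⟨fun s => a.1 (g⁻¹ * s), by
        have h := congrArg (ρ g) (LinearMap.mem_ker.1 a.2)
        rw [hφ, map_sum, map_zero] at h
        rw [LinearMap.mem_ker, hφ, ← h, ← Equiv.sum_comp (Equiv.mulLeft g)]
        exact Finset.sum_congr rfl fun s _ => by simp⟩
      one_smul := fun a => Subtype.ext (funext fun s => by
        change a.1 (1⁻¹ * s) = _; simp)
      mul_smul := fun g h a => Subtype.ext (funext fun s => by
        change a.1 ((g * h)⁻¹ * s) = a.1 (h⁻¹ * (g⁻¹ * s)); simp [mul_assoc]) }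
  have h2 : 2 ∣ Nat.card (LinearMap.ker φ) := by
    rw [card_sub]
    exact dvd_pow_self _ fun h => hK (Submodule.finrank_eq_zero.1 h)
  obtain ⟨b, hb, h0⟩ := hS.exists_fixed_point_of_prime_dvd_card_of_fixed_point _ h2
    (a := 0) (fun g => Subtype.ext (funext fun _ => rfl))
  have hc : ∀ s, b.1 s = b.1 1 := fun s => by
    have := congrFun (congrArg Subtype.val (hb s)) s
    change b.1 (s⁻¹ * s) = _ at this
    rw [← this, inv_mul_cancel]
  have h1 : b.1 1 = 1 := by
    have : b.1 1 ≠ 0 := fun e => h0 (Subtype.ext (funext fun s => ((hc s).trans e).symm))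
    exact zmod_two _ this
  apply hv
  have := LinearMap.mem_ker.1 b.2
  rw [hφ] at this
  rw [← this]
  exact Finset.sum_congr rfl fun s _ => by rw [hc, h1, one_smul]

/-- A `2`-group acting fixed point freely on a nontrivial group of odd order has a free summand. -/
theorem card_le_of_frob [Finite G] (hρ : Function.Injective ρ) {S R : Subgroup G}
    (hS : IsPGroup 2 S) (hR : Odd (Nat.card R)) (hR1 : R ≠ ⊥)
    (hn : ∀ s ∈ S, ∀ y ∈ R, s * y * s⁻¹ ∈ R)
    (hf : ∀ s ∈ S, s ≠ 1 → ∀ y ∈ R, s * y = y * s → y = 1) :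
    Nat.card S ≤ finrank (ZMod 2) V := by
  classical
  haveI := Fintype.ofFinite S
  haveI := Fintype.ofFinite R
  by_contra hlt
  have h0 : ∑ s : S, ρ s = 0 := by
    ext v
    by_contra hv
    exact hlt (card_le_of_norm (ρ := ρ) hS (v := v) (by simpa using hv))
  set E := ∑ y : R, ρ y with hE
  have hs : ∀ s : S, s ≠ 1 → ∑ y : R, ρ (y * s * (y : G)⁻¹) = E * ρ s := fun s h1 => by
    let f : R → R := fun y => ⟨y * (s * (y : G)⁻¹ * (s : G)⁻¹), R.mul_mem y.2 (hn _ s.2 _ (R.inv_mem y.2))⟩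
    have hinj : Function.Injective f := fun y z h => by
      have h2 : (y : G) * (s * (y : G)⁻¹ * (s : G)⁻¹) = z * (s * (z : G)⁻¹ * (s : G)⁻¹) :=
        congrArg Subtype.val h
      have h3 := hf s s.2 (fun e => h1 (Subtype.ext e)) ((z : G)⁻¹ * y)
        (R.mul_mem (R.inv_mem z.2) y.2) (by
          calc (s : G) * ((z : G)⁻¹ * y)
              = (z : G)⁻¹ * (z * (s * (z : G)⁻¹ * (s : G)⁻¹)) * s * y := by group
            _ = _ := by rw [← h2]; group)
      exact Subtype.ext (inv_mul_eq_one.1 h3).symm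
    rw [hE, Finset.sum_mul, ← Equiv.sum_comp (Equiv.ofBijective f hinj.bijective_of_finite)
      (fun y : R => ρ y * ρ s)]
    refine Finset.sum_congr rfl fun y _ => ?_
    rw [← map_mul]
    congr 1
    simp [f, mul_assoc]
  have h1 : ∑ y : R, ρ y * (∑ s : S, ρ s) * ρ (y : G)⁻¹ =
      1 + ∑ s ∈ Finset.univ.erase (1 : S), E * ρ s := by
    simp only [Finset.mul_sum, Finset.sum_mul, ← map_mul]
    rw [Finset.sum_comm, ← Finset.add_sum_erase _ _ (Finset.mem_univ (1 : S))]
    congr 1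
    · obtain ⟨c, hc⟩ := hR
      rw [Nat.card_eq_fintype_card] at hc
      simp [hc, two_end]
    · exact Finset.sum_congr rfl fun s hs' => hs s (Finset.ne_of_mem_erase hs')
  obtain ⟨y, hy, hy1⟩ := (Subgroup.bot_or_exists_ne_one R).resolve_left hR1
  have hy0 : (ρ y - 1) * E = 0 := by
    rw [sub_mul, one_mul, sub_eq_zero, hE, Finset.mul_sum,
      ← Equiv.sum_comp (Equiv.mulLeft (⟨y, hy⟩ : R)) (fun z : R => ρ z)]
    exact Finset.sum_congr rfl fun z _ => by simp
  have h2 := congrArg ((ρ y - 1) * ·) h1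
  simp only [h0, mul_zero, zero_mul, Finset.sum_const_zero, mul_add, mul_one, Finset.mul_sum,
    ← mul_assoc, hy0, add_zero] at h2
  exact hy1 (hρ (by rw [map_one]; exact sub_eq_zero.1 h2.symm))

theorem card_dvd_GL (hρ : Function.Injective ρ) : Nat.card G ∣
    ∏ i ∈ Finset.range (finrank (ZMod 2) V), (2 ^ finrank (ZMod 2) V - 2 ^ i) := by
  classical
  let b := Module.finBasis (ZMod 2) V
  let f : G →* GL (Fin (finrank (ZMod 2) V)) (ZMod 2) :=
    ((LinearMap.toMatrixAlgEquiv b).toMonoidHom.comp ρ).toHomUnits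
  have hf : Function.Injective f := fun x y h =>
    hρ ((LinearMap.toMatrixAlgEquiv b).injective (congrArg Units.val h))
  have := card_dvd_of_injective f hf
  rwa [Matrix.card_GL_field, ZMod.card, Fin.prod_univ_eq_prod_range
    (fun i => 2 ^ finrank (ZMod 2) V - 2 ^ i)] at this

theorem arith {k n r a : ℕ} (hk : k ≤ 5) (hn : n < 2 * k) (hr : r.Prime) (h2 : r ≠ 2) (ha : a ≠ 0)
    (hd : r ^ (a + 1) ∣ ∏ i ∈ Finset.range n, (2 ^ n - 2 ^ i)) : ¬ 2 ^ k ∣ r ^ a - 1 := by
  have h1 : ∀ n ∈ Finset.range 10, ∏ i ∈ Finset.range n, (2 ^ n - 2 ^ i) ∣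
      2 ^ 36 * 3 ^ 5 * 5 ^ 2 * 7 ^ 3 * 17 * 31 * 73 * 127 := by decide +kernel
  have h3 := hd.trans (h1 n (Finset.mem_range.2 (by omega)))
  have h4 := (dvd_pow_self r (Nat.succ_ne_zero a)).trans h3
  have e : ∀ p, p.Prime → ∀ i, r ∣ p ^ i → r = p := fun p hp i h =>
    (Nat.prime_dvd_prime_iff_eq hr hp).1 (hr.dvd_of_dvd_pow h)
  have hr' : r ∈ [3, 5, 7, 17, 31, 73, 127] := by
    simp only [hr.dvd_mul] at h4
    rcases h4 with ((((((h | h) | h) | h) | h) | h) | h) | h
    · exact absurd (e 2 (by norm_num) _ h) h2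
    · rw [e 3 (by norm_num) _ h]; simp
    · rw [e 5 (by norm_num) _ h]; simp
    · rw [e 7 (by norm_num) _ h]; simp
    · rw [e 17 (by norm_num) 1 (by simpa using h)]; simp
    · rw [e 31 (by norm_num) 1 (by simpa using h)]; simp
    · rw [e 73 (by norm_num) 1 (by simpa using h)]; simp
    · rw [e 127 (by norm_num) 1 (by simpa using h)]; simp
  have ha5 : a < 5 := by
    by_contra hh
    have h5 := (pow_dvd_pow r (by omega : 6 ≤ a + 1)).trans h3
    have : ∀ r ∈ [3, 5, 7, 17, 31, 73, 127],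
      ¬ r ^ 6 ∣ 2 ^ 36 * 3 ^ 5 * 5 ^ 2 * 7 ^ 3 * 17 * 31 * 73 * 127 := by decide +kernel
    exact this r hr' h5
  have key : ∀ k ∈ Finset.range 6, ∀ n ∈ Finset.range (2 * k), ∀ r ∈ [3, 5, 7, 17, 31, 73, 127],
      ∀ a ∈ Finset.range 5, a ≠ 0 → r ^ (a + 1) ∣ ∏ i ∈ Finset.range n, (2 ^ n - 2 ^ i) →
        ¬ 2 ^ k ∣ r ^ a - 1 := by decide +kernel
  exact key k (Finset.mem_range.2 (by omega)) n (Finset.mem_range.2 hn) r hr' a
    (Finset.mem_range.2 ha5) ha hd

end Cfsg.Agent.H38.SEM
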