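import Cfsg.Agent.H38.TenE
import Cfsg.Agent.H18.Gam
import Cfsg.Agent.H3.PGroup

/-! Groups of Monster type: the subgroup `2^(10+16).Ω₁₀⁺(2)`. -/

set_option autoImplicit false

namespace Cfsg.Agent.H38.MT

open Subgroup H15 H97
open Cfsg.Agent.H14 (idx bits enc)
open scoped Matrix

universe u

theorem exists_rho {G : Type u} [Group G] {N : Subgroup G} {ι : Type} [Fintype ι] [DecidableEq ι]
    {Φ : (ι → ZMod 2) → G} (inj : Function.Injective Φ) (add : ∀ x y, Φ (x + y) = Φ x * Φ y)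
    (h : ∀ (n : N) x, ∃ y, Φ y = n * Φ x * (n : G)⁻¹) :
    ∃ ρ : N →* GL ι (ZMod 2), ∀ n x, Φ ((ρ n : Matrix ι ι (ZMod 2)) *ᵥ x) = n * Φ x * (n : G)⁻¹ := by
  choose f hf using h
  let F : N → (ι → ZMod 2) →ₗ[ZMod 2] (ι → ZMod 2) := fun n =>
    (AddMonoidHom.mk' (f n) fun x y => inj (by rw [hf, add, add, hf, hf]; group)).toZModLinearMap 2
  have hF : ∀ n x, Φ (LinearMap.toMatrix' (F n) *ᵥ x) = n * Φ x * (n : G)⁻¹ := fun n x => by
    rw [LinearMap.toMatrix'_mulVec]; exact hf n x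
  let ψ : N →* Matrix ι ι (ZMod 2) :=
    { toFun := fun n => LinearMap.toMatrix' (F n)
      map_one' := Matrix.ext_iff_mulVec.2 fun x => inj (by rw [hF]; simp)
      map_mul' := fun a b => Matrix.ext_iff_mulVec.2 fun x => inj (by
        rw [← Matrix.mulVec_mulVec, hF, hF, hF]; simp [mul_assoc]) }
  exact ⟨ψ.toHomUnits, hF⟩

/-- the group `O₁₀⁺(2)` -/
abbrev Ga10 : Type := isometryGroup (ZMod 2) (quadFormPlus 5 (ZMod 2))

/-- the group `Ω₁₀⁺(2)` -/
abbrev Om10 : Subgroup Ga10 := Omega (ZMod 2) (quadFormPlus 5 (ZMod 2))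

theorem simple_Om10 : IsSimpleGroup Om10 := by
  refine simple_of_center ?_ (S0296.result 5 (by norm_num))
  let ε := H11.commEquiv (H11.isoOG (H11.qPlus (ZMod 2) 5) _ (H11.qPlus_eq (ZMod 2) 5))
  rw [← (H11.nd_qPlus (ZMod 2) 5).card_center_omega_one (by simp) (Or.inl rfl),
    ← H9.map_center_eq ε]
  exact (card_map_of_injective ε.injective).symm

theorem card_Ga10 : Nat.card Ga10 = 2 * 23499295948800 := by
  rw [H56.card_isoPlus 4, Nat.card_zmod]
  norm_num [Finset.prod_range_succ]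

theorem card_Om10 : Nat.card Om10 = 23499295948800 := by
  have h1 := (H11.nd_qPlus (ZMod 2) 5).index_even rfl (by simp)
  rw [H11.index_commutator_OG, ← funext (H11.qPlus_eq (ZMod 2) 5)] at h1
  have h2 := Om10.card_mul_index
  rw [h1, card_Ga10] at h2
  omega

theorem eq_Om10 {K : Subgroup Ga10} (h : Nat.card K = 23499295948800) : K = Om10 := by
  have h2 := K.card_mul_index
  rw [h, card_Ga10] at h2
  have i2 : K.index = 2 := by omega
  refine (eq_of_le_of_card_ge (H := Om10) (commutator_le.2 fun a _ b _ => ?_)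
    (h.trans card_Om10.symm).le).symm
  simp only [commutatorElement_def, mul_mem_iff_of_index_two i2, inv_mem_iff]
  tauto

theorem cw_O2 : IsCw (bits 6889680) := isCw_bits (by decide +kernel)

variable {G : Type u} [Group G] {z : G} {Q : Subgroup G}
  {π : centralizer ({z} : Set G) →* Spor.Co1} {R : G → leechLattice → Prop}
  [Finite G] {M : MD z Q π R} {g : G} {h8 : R (g * z * g⁻¹) (e8 none)}
  {s1 n : G} {Φ : V10 → G} (T : TS M h8 s1 n Φ)
include T

namespace TS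

theorem exists_hom : ∃ ρ : N10 M h8 →* Ga10, ρ.range = Om10 ∧
    ρ.ker = (O26 M h8).subgroupOf _ ∧ ∀ n x, Φ (((ρ n : GL I10 (ZMod 2)) : Matrix I10 I10 (ZMod 2))
      *ᵥ x) = n * Φ x * (n : G)⁻¹ := by
  obtain ⟨ρ, hρ⟩ := exists_rho (N := N10 M h8) T.inj T.add fun n x =>
    (T.mem _).1 (conj_E M h8 n.2 (T.phi_mem x))
  have hq : ∀ n, ρ n ∈ isometryGroup (ZMod 2) (quadFormPlus 5 (ZMod 2)) := fun n x _ => by
    have h1 := T.sing ((ρ n : Matrix I10 I10 (ZMod 2)) *ᵥ x)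
    rw [hρ, sing_conj, T.sing] at h1
    have : ∀ a b : ZMod 2, (b = 0 ↔ a = 0) → a = b := by decide
    exact this _ _ h1
  have hk : (ρ.codRestrict _ hq).ker = (O26 M h8).subgroupOf _ := by
    ext m
    rw [MonoidHom.mem_ker, Subtype.ext_iff, mem_subgroupOf, mem_O26]
    change ρ m = 1 ↔ _
    constructor
    · intro h a ha
      obtain ⟨x, rfl⟩ := (T.mem a).1 ha
      have := hρ m x
      rw [h, Units.val_one, Matrix.one_mulVec] at this
      exact eq_mul_inv_iff_mul_eq.1 this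
    · intro h
      exact Units.ext (Matrix.ext_iff_mulVec.2 fun x => T.inj (by
        rw [hρ, ← h _ (T.phi_mem x), mul_inv_cancel_right, Units.val_one, Matrix.one_mulVec]))
  refine ⟨ρ.codRestrict _ hq, eq_Om10 ?_, hk, hρ⟩
  have h1 := card_ker_mul_range (ρ.codRestrict _ hq)
  rw [hk, Nat.card_congr (subgroupOfEquivOfLe (O_le_N M h8)).toEquiv, T.card_O, T.card_N] at h1
  exact Nat.eq_of_mul_eq_mul_left (by norm_num) (h1.trans (by norm_num))

theorem exists_m : ∃ m ∈ N10 M h8, m * z * m⁻¹ = s1 :=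
  T.orbit_z.1.ge ⟨⟨T.s_mem, T.S.sing⟩, fun h => T.s_not_mem (h ▸ one_mem Q)⟩

theorem sq_mem {y : G} (hy : y ∈ O26 M h8) : y * y ∈ E10 M h8 := by
  obtain ⟨m, hm, e⟩ := T.exists_m
  have L := lx_cjs M.lx m
  rw [e] at L
  have hz : z ∉ cjs m Q := fun h => T.s_not_mem (by
    have := M.mem_cjs_of_mem (g := m⁻¹) (by simpa using mem_cjs.1 h) fun h' => T.s_not_mem (by
      rw [← e]; nth_rewrite 1 [← h']; simpa [mul_assoc] using M.lx.mem)
    rw [← e]; simpa using mem_cjs.1 this)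
  have A : ∀ x ∈ cjs m Q, x ∈ O26 M h8 → x ∈ Q → x ∈ Z0 M OO := fun x h1 h2 h3 => by
    have h4 := mem_Z0_of_comm M h8 (mem_cjs.1 h1) fun w hw => by
      have h5 := conj_O M h8 hm hw.2
      have h6 := (L.comm _ (conj_mem_cjs.2 hw.1) x h1).resolve_right fun h => T.s_not_mem
        ((mul_mem_cancel_right h3).1 (h ▸ M.lx.norm _
          (mem_centralizer_singleton_iff.1 (O26_le_C M h8 h5)) x h3))
      calc w * (m⁻¹ * x * m) = m⁻¹ * (m * w * m⁻¹ * x * (m * w * m⁻¹)⁻¹) * m * w := by group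
        _ = _ := by rw [h6]
    exact EE_inf M h8 (by simpa [mul_assoc] using conj_E M h8 hm (Z0_le_EE M h8 h4)) h3
  have c1 : Nat.card ↥(cjs m Q ⊓ O26 M h8) = 2 ^ 17 := by
    rw [← T.card_W, ← card_cjs m (Q ⊓ O26 M h8)]
    congr 2
    ext x
    rw [mem_inf, mem_cjs, mem_cjs, mem_inf]
    exact and_congr_right fun _ => ⟨fun h => by simpa using conj_O M h8 (inv_mem hm) h,
      fun h => by simpa [mul_assoc] using conj_O M h8 hm h⟩
  have c2 := two_mul_le (A := cjs m Q ⊓ O26 M h8 ⊓ Q) (B := Z0 M OO)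
    (fun x hx => A x hx.1.1 hx.1.2 hx.2) (z_mem_Z0 M) fun h => hz h.1.1
  have c3 := M.card_pb (H := cjs m Q ⊓ O26 M h8) (inf_le_right.trans (O26_le_C M h8))
  have := finite_Co0
  have c4 : pb π (cjs m Q ⊓ O26 M h8) = pb π (O26 M h8) := eq_of_le_of_card_ge (fun k hk => by
    obtain ⟨h, h1, h2⟩ := mem_pb.1 hk
    exact mem_pb.2 ⟨h, h1.2, h2⟩) (by
      rw [T.pb_O, card_K1]
      rw [T.card_Z0] at c2
      by_contra hlt
      have := Nat.mul_le_mul (show Nat.card ↥(cjs m Q ⊓ O26 M h8 ⊓ Q) ≤ 256 by omega)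
        (Nat.le_of_lt_succ (not_le.1 hlt))
      omega)
  obtain ⟨k, hk⟩ := ov_ex π (O26_le_C M h8 hy)
  obtain ⟨c, h1, h2⟩ := mem_pb.1 (c4.ge (mem_pb.2 ⟨⟨y, hk.mem⟩, hy, hk.2⟩))
  have ha := hk.quot M ⟨c.2, h2⟩
  have ha' := mul_mem hy (inv_mem h1.2)
  have hc := mem_centralizer_singleton_iff.1 c.2
  generalize (c : G) = c at h1 ha ha' hc
  obtain ⟨a, rfl⟩ : ∃ a, y = a * c := ⟨y * c⁻¹, by simp⟩
  rw [mul_inv_cancel_right] at ha ha'
  have e1 : a * a ∈ E10 M h8 := by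
    rcases M.lx.sqr a ha with h | h <;> rw [h]
    exacts [one_mem _, z_mem_E M h8]
  have e2 : c * c ∈ E10 M h8 := by
    rcases L.sqr c h1.1 with h | h <;> rw [h]
    exacts [one_mem _, T.s_mem]
  have e3 := A (a⁻¹ * c * a⁻¹⁻¹ * c⁻¹)
    (mul_mem (L.norm _ (inv_mem ha' _ T.s_mem).symm _ h1.1) (inv_mem h1.1))
    (mul_mem (mul_mem (mul_mem (inv_mem ha') h1.2) (inv_mem (inv_mem ha'))) (inv_mem h1.2))
    (by simpa [mul_assoc] using mul_mem (inv_mem ha) (M.lx.norm c hc a ha))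
  simpa [mul_assoc] using mul_mem (mul_mem e1 (Z0_le_EE M h8 e3)) e2

theorem mem_of_central {y : G} (hy : y ∈ O26 M h8) (h : ∀ x ∈ O26 M h8, x * y = y * x) :
    y ∈ E10 M h8 := by
  obtain ⟨k, hk, ho⟩ : ∃ k ∈ QQ, Ov π y k := by
    obtain ⟨k, hk⟩ := ov_ex π (O26_le_C M h8 hy)
    rcases mk_mem_QQ1.1 (T.pb_O.le (mem_pb.2 ⟨⟨y, hk.mem⟩, hy, hk.2⟩)) with h | h
    exacts [⟨k, h, hk⟩, ⟨_, h, hk.neg⟩]
  rcases QQ_ex.center k hk fun j hj => by
    obtain ⟨c, h1, h2⟩ := T.lift_QQ hj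
    have h3 := h2.mul ho
    rw [h c h1] at h3
    exact QQ_inj (mul_mem hk hj) (mul_mem hj hk) ((ho.mul h2).2.trans h3.2.symm) with rfl | rfl
  · exact Z0_le_EE M h8 (mem_Z0_of_comm M h8 (ho.one M) fun x hx => h x hx.2)
  · have h1 := ho.neg
    rw [← negC_comm, ← sign_OO] at h1
    have h2 := mem_Z0_of_comm M h8 (h1.quot M T.S.ov) fun x hx =>
      Commute.mul_right (h x hx.2) (Commute.inv_right (hx.2 _ T.s_mem).symm)
    simpa using mul_mem (Z0_le_EE M h8 h2) T.s_mem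

theorem le_commutator : E10 M h8 ≤ ⁅O26 M h8, O26 M h8⁆ := by
  have hz : z ∈ ⁅O26 M h8, O26 M h8⁆ := by
    have sp : ∀ v : leechLattice, (∀ i ∈ OO, (v : Vec) i = 0) → Spl OO v := fun v hv =>
      ⟨0, fun i => by split_ifs with hi; exacts [(hv i hi).symm, rfl]⟩
    obtain ⟨a, ha⟩ := M.ex' (lTwo cw_O2)
    obtain ⟨b, hb⟩ := M.ex' (w4 (some 4) (some 8) 1 rfl)
    have h1 := (M.lx.comm a (M.mem ha) b (M.mem hb)).resolve_left fun h =>
      absurd ((M.comm_iff ha hb).1 (mul_inv_eq_iff_eq_mul.1 h)) (by decide +kernel)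
    have := commutator_mem_commutator (mem_O_of_spl M h8 ha (sp _ (by decide +kernel)))
      (mem_O_of_spl M h8 hb (sp _ (by decide +kernel)))
    rwa [commutatorElement_def, h1, mul_inv_cancel_right] at this
  have h1 : ∀ k, Φ (Pi.single k 1) ∈ ⁅O26 M h8, O26 M h8⁆ := fun k => by
    obtain ⟨m, hm, e⟩ : ∃ m ∈ N10 M h8, m * z * m⁻¹ = Φ (Pi.single k 1) :=
      T.orbit_z.1.ge ⟨⟨T.phi_mem _, (T.sing _).2 (by revert k; decide +kernel)⟩,
        fun h => absurd (congrFun (T.inj (h.trans T.zero.symm)) k) (by simp)⟩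
    have h2 : (O26 M h8).map (MulAut.conj m).toMonoidHom ≤ O26 M h8 := by
      rintro _ ⟨x, hx, rfl⟩
      exact conj_O M h8 hm hx
    rw [← e]
    have h3 := mem_map_of_mem (MulAut.conj m).toMonoidHom hz
    rw [map_commutator] at h3
    exact commutator_mono h2 h2 h3
  intro a ha
  obtain ⟨x, rfl⟩ := (T.mem a).1 ha
  rw [← Finset.univ_sum_single x]
  refine Finset.sum_induction _ (fun x => Φ x ∈ _) (fun a b h1 h2 => T.add a b ▸ mul_mem h1 h2)
    (T.zero ▸ one_mem _) fun k _ => ?_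
  rcases H15.zmod2_cases (x k) with h | h <;> rw [h]
  · rw [Pi.single_zero, T.zero]; exact one_mem _
  · exact h1 k

theorem special {P : Type*} [Group P] (f : P →* G) (hf : Function.Injective f)
    (hr : f.range = O26 M h8) : IsSpecial 2 P ∧ center P = (E10 M h8).comap f := by
  haveI : Fact (Nat.Prime 2) := ⟨Nat.prime_two⟩
  haveI := Finite.of_injective f hf
  have hm : ∀ x, f x ∈ O26 M h8 := fun x => hr.le ⟨x, rfl⟩
  have hp : IsPGroup 2 P := IsPGroup.of_card (by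
    rw [← T.card_O, ← hr]; exact Nat.card_congr (MonoidHom.ofInjective hf).toEquiv)
  have hc : center P = (E10 M h8).comap f := by
    ext y
    rw [mem_center_iff, mem_comap]
    refine ⟨fun h => T.mem_of_central (hm y) fun x hx => ?_,
      fun h x => hf (by rw [map_mul, map_mul]; exact (hm x _ h).symm)⟩
    obtain ⟨x, rfl⟩ := hr.ge hx
    rw [← map_mul, h, map_mul]
  have h1 : center P ≤ _root_.commutator P := by
    rw [hc, ← map_le_map_iff_of_injective hf, commutator_def, map_commutator, ← f.range_eq_map, hr]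
    exact (map_comap_le _ _).trans T.le_commutator
  have hs : ∀ x : P, x * x ∈ center P := fun x => by
    rw [hc, mem_comap, map_mul]; exact T.sq_mem (hm x)
  have h2 : _root_.commutator P ≤ center P := commutator_le.2 fun a _ b _ => by
    have := mul_mem (mul_mem (hs (a * b)) ((inferInstance : (center P).Normal).conj_mem _
      (inv_mem (hs a)) b⁻¹)) (inv_mem (hs b))
    rw [commutatorElement_def]
    convert this using 1
    group
  exact ⟨⟨hp, le_antisymm (H3.frattini_le_of_elementary_quotient h2 fun x => by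
    rw [sq]; exact hs x) (h1.trans (H3.commutator_le_frattini hp)), le_antisymm h2 h1⟩, hc⟩

theorem shape : ∃ (E N : Subgroup G) (O : Subgroup N), IsElementaryAbelian 2 E ∧
    Nat.card E = 2 ^ 10 ∧ N = normalizer (E : Set G) ∧ O = pCore 2 N ∧ IsSpecial 2 O ∧
    Nat.card O = 2 ^ 26 ∧ (center O).map O.subtype = E.subgroupOf N ∧
    O = centralizer (E.subgroupOf N : Set N) ∧
    ∃ _ : O.Normal, Nonempty (N ⧸ O ≃* Omega (ZMod 2) (quadFormPlus 5 (ZMod 2))) := by
  obtain ⟨ρ, h1, h2, -⟩ := T.exists_hom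
  obtain ⟨s1, s2⟩ := T.special ((N10 M h8).subtype.comp
    ((O26 M h8).subgroupOf (N10 M h8)).subtype) ((subtype_injective _).comp (subtype_injective _))
    (by rw [MonoidHom.range_comp, range_subtype, subgroupOf_map_subtype,
      inf_eq_left.2 (O_le_N M h8)])
  let φ : N10 M h8 →* Om10 := ρ.codRestrict _ fun x => h1.le ⟨x, rfl⟩
  have hφ : Function.Surjective φ := fun y => by
    obtain ⟨x, hx⟩ := h1.ge y.2
    exact ⟨x, Subtype.ext hx⟩
  have hk : φ.ker = (O26 M h8).subgroupOf _ := (MonoidHom.ker_codRestrict _ _ _).trans h2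
  have e := subgroupOfEquivOfLe (O_le_N M h8)
  have hN : H18.NoP 2 Om10 := fun U h h' =>
    eq_bot_of_simple simple_Om10 (by rw [card_Om10]; norm_num) U h h'
  refine ⟨E10 M h8, N10 M h8, (O26 M h8).subgroupOf _, ⟨⟨⟨fun a b => Subtype.ext
    (EE_comm M h8 a.2 b.2)⟩⟩, fun a ha => by rw [sq, EE_sq M h8 ha]⟩, T.card_E, rfl,
    (hN.quot hφ hk (O_le_N M h8) (IsPGroup.of_card T.card_O)).1.symm, s1, by rw [Nat.card_congr e.toEquiv, T.card_O], ?_, ?_,
    H18.quot_equiv hφ hk⟩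
  · ext y
    rw [s2]
    exact ⟨by rintro ⟨x, hx, rfl⟩; exact hx, fun hy => ⟨⟨y, E_le_O M h8 hy⟩, hy, rfl⟩⟩
  · ext y
    exact ⟨fun h a ha => Subtype.ext (h _ ha), fun h a ha => congrArg Subtype.val
      (h ⟨a, O_le_N M h8 (E_le_O M h8 ha)⟩ ha)⟩

end TS

end Cfsg.Agent.H38.MT
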